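import Cfsg.Agent.H987.PSq.Theta
import Cfsg.Agent.H477.HC.Rows
import Cfsg.Agent.H677.DG.SpRank
import Cfsg.Agent.H696.PSq.Defs

/-!
# Team PSQ (S4844), row `PSp_{2m}(q)` (helper987)

`sq_psp` : a simple group `PSp_{2m}(q)` of order divisible by `p ^ 2`, `p` an odd prime, has an irreducible degree
divisible by `p ^ 2`.
-/

set_option autoImplicit false

namespace Cfsg.Agent.H987.PSq

open Cfsg Cfsg.Agent.H33 Cfsg.Agent.H477.HC Cfsg.Agent.H53.HC

universe u

/-- the characteristic -/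
theorem sq_char {p : ℕ} [hp : Fact p.Prime] {S : Type u} [Group S] [Finite S] [IsSimpleGroup S]
    (h : IsLieTypeChar p S) {t : ℕ} (hd : p ^ t ∣ Nat.card S) : IM (p ^ t) S := by
  obtain ⟨χ, hχ, h1, -⟩ := Cfsg.Agent.H167.StChar.hasSt_of_lie hp.1 h
  refine IM.of_apply_one hχ h1 (pow_dvd_pow p ?_)
  exact (hp.1.pow_dvd_iff_le_factorization Nat.card_pos.ne').1 hd

theorem im_plus_two (K : Type) [Field K] [Finite K] {r : ℕ} (hr : r.Prime) (hr2 : r ≠ 2) (hd : r ∣ Nat.card K + 1) :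
    IM (r ^ 2) (PSp 2 K) := by
  let _ : Fintype K := Fintype.ofFinite K
  obtain ⟨χ₁, -, f, -, h1, -, h3, -, h5, -⟩ := H677.SpRank.exists_chars (F := K) (m := 2) le_rfl
  refine IM.of_apply_one h1 h3 ?_
  have hq2 : 2 ≤ Nat.card K := Finite.one_lt_card
  have h4 : 2 * f = Nat.card K * (Nat.card K + 1) ^ 2 := by
    have h6 : ((Nat.card K : ℤ) - 1) ≠ 0 := by
      have : (2 : ℤ) ≤ Nat.card K := by exact_mod_cast hq2
      omega
    have h7 : (2 * f : ℤ) = Nat.card K * (Nat.card K + 1) ^ 2 := by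
      generalize (Nat.card K : ℤ) = q at h5 h6 ⊢
      apply mul_left_cancel₀ h6
      norm_num at h5
      linear_combination h5
    exact_mod_cast h7
  have h5 : r ^ 2 ∣ 2 * f := by
    rw [h4]
    exact Dvd.dvd.mul_left (pow_dvd_pow_of_dvd hd 2) _
  have h6 : Nat.Coprime (r ^ 2) 2 := by
    apply Nat.Coprime.pow_left
    exact (Nat.coprime_primes hr Nat.prime_two).2 hr2
  exact h6.dvd_of_dvd_mul_left h5

/-- **`PSp_{2m}(q)`, `r ≠ p`.** -/
theorem sq_psp_main (K : Type) [Field K] [Finite K] {p : ℕ} [Fact p.Prime] [CharP K p] {m : ℕ} (hm : 2 ≤ m)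
    (h1 : m = 2 → 4 ≤ Nat.card K) {r : ℕ} (hr : r.Prime) (hr2 : r ≠ 2) (hrp : r ≠ p)
    (hd : r ^ 2 ∣ Nat.card (PSp m K)) : IM (r ^ 2) (PSp m K) := by
  classical
  have hp : p.Prime := Fact.out
  obtain ⟨s, hs⟩ := card_pow K p
  have hq2 : 2 ≤ Nat.card K := Finite.one_lt_card
  have hrq : ¬ r ∣ Nat.card K := by
    rw [hs]; intro h; exact hrp ((Nat.prime_dvd_prime_iff_eq hr hp).1 (hr.dvd_of_dvd_pow h))
  have hcop : ∀ {a b : ℕ}, ¬ r ∣ a → r ^ 2 ∣ a * b → r ^ 2 ∣ b := fun ha h =>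
    (Nat.Coprime.pow_left 2 ((Nat.Prime.coprime_iff_not_dvd hr).2 ha)).dvd_of_dvd_mul_left h
  have hd1 : r ^ 2 ∣ Nat.card (Matrix.symplecticGroup (Fin m) K) := hd.trans (Subgroup.card_quotient_dvd_card _)
  rw [Nat.card_congr (isoSp m K).toEquiv, card_spF] at hd1
  have hd2 : r ^ 2 ∣ ∏ i ∈ Finset.range m, (Nat.card K ^ (2 * (i + 1)) - 1) :=
    hcop (fun h => hrq (hr.dvd_of_dvd_pow h)) hd1
  by_cases hA : r ^ 2 ∣ (Nat.card K ^ m + 1) * ∏ i ∈ Finset.range (m - 1), (Nat.card K ^ (2 * (i + 1)) - 1)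
  · obtain ⟨c, hc⟩ := exists_cus_sq K rfl m (by omega) (fun h => by
        by_contra h'
        have := h1 (by omega)
        omega) (fun h => by
        by_contra h'
        have := h1 (by omega)
        omega) (fun h => by omega)
    obtain ⟨χ, hχ, hχ1⟩ := psp_char (k := m) (n := 0) hc (one_pow 2) (neg_one_sq)
    obtain ⟨e, he⟩ := psp_dvd_top K (p := p) (m := m) (by omega)
    exact IM.of_apply_one hχ hχ1 (prime_pow_dvd (t := 2) hr hp hrp (hA.trans he))
  · have hB : r ∣ Nat.card K ^ m - 1 := by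
      by_contra hB
      apply hA
      obtain ⟨j, rfl⟩ : ∃ j, m = j + 1 := ⟨m - 1, by omega⟩
      rw [Finset.prod_range_succ] at hd2
      have h4 : Nat.card K ^ (2 * (j + 1)) - 1 = (Nat.card K ^ (j + 1) + 1) * (Nat.card K ^ (j + 1) - 1) := by
        rw [← Nat.sq_sub_sq, one_pow, ← pow_mul, mul_comm]
      rw [h4] at hd2
      rw [Nat.add_sub_cancel]
      refine hcop hB ((dvd_of_eq ?_).trans (dvd_refl _) |> hd2.trans)
      ring
    by_cases hm2 : m = 2
    · subst hm2
      have h4 : Nat.card K ^ 2 - 1 = (Nat.card K + 1) * (Nat.card K - 1) := by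
        rw [← Nat.sq_sub_sq, one_pow]
      rw [h4] at hB
      rcases hr.dvd_mul.1 hB with h5 | h5
      · exact im_plus_two K hr hr2 h5
      · exact im_psp_two K hr hr2 h5
    · have hC : ¬ r ∣ Nat.card K ^ 2 - 1 := by
        intro hC
        apply hA
        apply Dvd.dvd.mul_left
        have h5 : r ^ 2 ∣ ∏ i ∈ Finset.range 2, (Nat.card K ^ (2 * (i + 1)) - 1) := by
          rw [Finset.prod_range_succ, Finset.prod_range_one, pow_two]
          refine Nat.mul_dvd_mul hC (hC.trans ?_)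
          have h6 := Nat.sub_dvd_pow_sub_pow (Nat.card K ^ 2) 1 2
          rw [one_pow, ← pow_mul] at h6
          exact h6
        exact h5.trans (Finset.prod_dvd_prod_of_subset _ _ _ (Finset.range_subset_range.2 (by omega)))
      have hD : r ^ 2 ∣ ∏ i ∈ Finset.Ico 1 m, (Nat.card K ^ (2 * (i + 1)) - 1) := by
        rw [Finset.range_eq_Ico, Finset.prod_eq_prod_Ico_succ_bot (by omega)] at hd2
        exact hcop hC hd2
      have hE : ¬ r ∣ Nat.card K ^ (m - 1) - 1 := by
        intro hE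
        apply hC
        obtain ⟨j, rfl⟩ : ∃ j, m = j + 1 := ⟨m - 1, by omega⟩
        rw [Nat.add_sub_cancel] at hE
        have h6 : Nat.card K ^ (j + 1) - 1 = Nat.card K * (Nat.card K ^ j - 1) + (Nat.card K - 1) := by
          have h7 : 1 ≤ Nat.card K ^ j := Nat.one_le_pow _ _ (by omega)
          obtain ⟨x, hx⟩ : ∃ x, Nat.card K ^ j = x + 1 := ⟨Nat.card K ^ j - 1, by omega⟩
          obtain ⟨y, hy⟩ : ∃ y, Nat.card K = y + 1 := ⟨Nat.card K - 1, by omega⟩
          rw [pow_succ, hx, hy, Nat.add_sub_cancel, Nat.add_sub_cancel]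
          have : (x + 1) * (y + 1) = (y + 1) * x + y + 1 := by ring
          omega
        rw [h6] at hB
        have h8 : r ∣ Nat.card K - 1 := (Nat.dvd_add_right (Dvd.dvd.mul_left hE _)).1 hB
        refine h8.trans ?_
        have h9 := Nat.sub_dvd_pow_sub_pow (Nat.card K) 1 2
        rwa [one_pow] at h9
      obtain ⟨c, hc⟩ := exists_cus_sq K rfl (m - 1) (by omega) (fun h => by
          by_contra h'
          have hm3' : m = 3 := by omega
          subst hm3'
          rw [h] at hB hd2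
          norm_num at hB
          have h7 : r = 7 := (Nat.prime_dvd_prime_iff_eq hr (by norm_num)).1 hB
          rw [h7] at hd2
          revert hd2
          norm_num [Finset.prod_range_succ])
        (fun h => by
          by_contra h'
          have hm3' : m = 3 := by omega
          subst hm3'
          rw [h] at hB hd2
          norm_num at hB
          have h7 : r = 13 := by
            have h5 : r ∣ 2 * 13 := hB
            rcases hr.dvd_mul.1 h5 with h6 | h6
            · exact absurd ((Nat.prime_dvd_prime_iff_eq hr Nat.prime_two).1 h6) hr2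
            · exact (Nat.prime_dvd_prime_iff_eq hr (by norm_num)).1 h6
          rw [h7] at hd2
          revert hd2
          norm_num [Finset.prod_range_succ]) (fun h => by omega)
      obtain ⟨χ, hχ, hχ1⟩ := psp_char (k := m - 1) (n := 1) hc (one_pow 2) (neg_one_sq)
      obtain ⟨e, he⟩ := psp_dvd K (p := p) (k := m - 1) (n := 1) (by omega)
      have hm1 : m - 1 + 1 = m := by omega
      have h6 : r ^ 2 ∣ p ^ e * (dg (CForm.spF K (m - 1 + 1)) (m - 1) * (Nat.card K ^ (m - 1) - 1)) := by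
        refine Dvd.dvd.trans ?_ he
        rw [hm1]
        exact hD
      have h7 : r ^ 2 ∣ dg (CForm.spF K (m - 1 + 1)) (m - 1) * (Nat.card K ^ (m - 1) - 1) :=
        prime_pow_dvd (t := 2) hr hp hrp h6
      have h9 : r ^ 2 ∣ dg (CForm.spF K (m - 1 + 1)) (m - 1) := hcop hE (by rwa [mul_comm] at h7)
      have h10 : IM (r ^ 2) (PSp (m - 1 + 1) K) := IM.of_apply_one hχ hχ1 h9
      rwa [hm1] at h10

/-- **The row `PSp_{2m}(q)` of `FactSq`.** -/
theorem sq_psp {S : Type u} [Group S] [Finite S] (h : IsPSp S) (hs : IsSimpleGroup S) {p : ℕ} [hp : Fact p.Prime]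
    (hp2 : p ≠ 2) (hd : p ^ 2 ∣ Nat.card S) : Cfsg.Agent.H33.IM (p ^ 2) S := by
  obtain ⟨F, _, _, m, hm, h3, ⟨e⟩⟩ := h
  obtain ⟨r, hr⟩ := CharP.exists F
  have hrr : r.Prime := (CharP.char_is_prime_or_zero F r).resolve_right (CharP.char_ne_zero_of_finite F r)
  have : Fact r.Prime := ⟨hrr⟩
  by_cases hrp : p = r
  · subst hrp
    have hL : IsLieTypeChar p S := by
      refine Or.inr (Or.inl ⟨F, inferInstance, inferInstance, inferInstance, m, hm, h3, ⟨e⟩⟩)
    exact sq_char hL hd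
  rw [IM.congr e]
  rw [Nat.card_congr e.toEquiv] at hd
  refine sq_psp_main F (p := r) hm (fun h4 => ?_) hp.1 hp2 hrp hd
  rw [Nat.card_eq_fintype_card]
  have h5 := h3 h4
  by_contra h6
  have hF : Fintype.card F = 3 := by omega
  subst h4
  -- `|PSp_4(3)|`, `p ≠ 2, 3`
  have hr3 : r = 3 := by
    obtain ⟨s, hs'⟩ := card_pow F r
    rw [Nat.card_eq_fintype_card, hF] at hs'
    have : r ∣ 3 := by
      rcases Nat.eq_zero_or_pos s with rfl | h0
      · simp at hs'
      · rw [hs']; exact dvd_pow_self r h0.ne'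
    exact (Nat.prime_dvd_prime_iff_eq hrr Nat.prime_three).1 this
  have h1 : p ^ 2 ∣ Nat.card (Matrix.symplecticGroup (Fin 2) F) := hd.trans (Subgroup.card_quotient_dvd_card _)
  rw [Cfsg.Agent.S0245.result hF 2] at h1
  have h2 : p ^ 2 ∣ 2 ^ 7 * (3 ^ 4 * 5) := by
    refine h1.trans (dvd_of_eq ?_)
    rw [Finset.prod_range_succ, Finset.prod_range_one]
    norm_num
  have c2 : Nat.Coprime (p ^ 2) (2 ^ 7) := Nat.Coprime.pow _ _ ((Nat.coprime_primes hp.1 Nat.prime_two).2 hp2)
  have c3 : Nat.Coprime (p ^ 2) (3 ^ 4) := Nat.Coprime.pow _ _ ((Nat.coprime_primes hp.1 Nat.prime_three).2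
    (fun h => hrp (h.trans hr3.symm)))
  have h8 : p ^ 2 ∣ 5 := c3.dvd_of_dvd_mul_left (c2.dvd_of_dvd_mul_left h2)
  have h9 : p = 5 := (Nat.prime_dvd_prime_iff_eq hp.1 Nat.prime_five).1 ((dvd_pow_self p two_ne_zero).trans h8)
  rw [h9] at h8
  revert h8
  norm_num

end Cfsg.Agent.H987.PSq
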