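import Cfsg.Agent.H987.PSq.WProj
import Cfsg.Agent.H162.WeilSp

/-!
# The action of `Sp_4(F)` and the commutant on the range of the sign projection (helper987, S4844)
-/

set_option autoImplicit false
set_option linter.unusedSectionVars false

namespace Cfsg.Agent.H987.PSq

open Matrix Cfsg.Agent.H162.Weil
open scoped ComplexConjugate ComplexOrder

/-- The action of the symplectic group on `E⁴`. -/
@[reducible] def act (F E : Type*) [Field F] [Field E] [Algebra F E] :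
    DistribMulAction (Matrix.symplecticGroup (Fin 2) F) (Fin 2 ⊕ Fin 2 → E) where
  smul g v := ((g : Matrix (Fin 2 ⊕ Fin 2) (Fin 2 ⊕ Fin 2) F).map (algebraMap F E)) *ᵥ v
  one_smul v := by
    change (((1 : Matrix (Fin 2 ⊕ Fin 2) (Fin 2 ⊕ Fin 2) F)).map (algebraMap F E)) *ᵥ v = v
    rw [Matrix.map_one _ (map_zero _) (map_one _), Matrix.one_mulVec]
  mul_smul g h v := by
    change ((((g * h : Matrix.symplecticGroup (Fin 2) F)) : Matrix (Fin 2 ⊕ Fin 2) (Fin 2 ⊕ Fin 2) F).map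
      (algebraMap F E)) *ᵥ v = _ *ᵥ (_ *ᵥ v)
    rw [Matrix.mulVec_mulVec]
    congr 1
    exact Matrix.map_mul
  smul_zero g := Matrix.mulVec_zero _
  smul_add g := Matrix.mulVec_add _

namespace QD

variable {F E : Type*} [Field F] [Field E] [Algebra F E] (Q : QD F E) [DecidableEq E] [Fintype E]

attribute [local instance] act

theorem smul_def (g : Matrix.symplecticGroup (Fin 2) F) (v : Fin 2 ⊕ Fin 2 → E) :
    g • v = ((g : Matrix (Fin 2 ⊕ Fin 2) (Fin 2 ⊕ Fin 2) F).map (algebraMap F E)) *ᵥ v := rfl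

theorem σ_mulVec {m : Type*} [Fintype m] (A : Matrix m m F) (w : m → E) :
    (fun i => Q.σ ((A.map (algebraMap F E) *ᵥ w) i)) = A.map (algebraMap F E) *ᵥ fun i => Q.σ (w i) := by
  funext i
  simp only [Matrix.mulVec, dotProduct, map_sum, map_mul, Matrix.map_apply, Q.fixF]

theorem ee_eq (v w : Fin 2 ⊕ Fin 2 → E) : Q.ee v w = Q.χ (v ⬝ᵥ (Matrix.J (Fin 2) E *ᵥ fun i => Q.σ (w i))) := by
  rw [ee]
  congr 1
  simp only [Matrix.J, Matrix.fromBlocks_mulVec, dotProduct, Fintype.sum_sum_type, Fin.sum_univ_two, Sum.elim_inl,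
    Sum.elim_inr, Matrix.zero_mulVec, Matrix.one_mulVec, Matrix.neg_mulVec, Pi.add_apply, Pi.neg_apply, Pi.zero_apply,
    Function.comp, tau, fa, fb]
  ring

theorem he (g : Matrix.symplecticGroup (Fin 2) F) (v w : Fin 2 ⊕ Fin 2 → E) : Q.ee (g • v) (g • w) = Q.ee v w := by
  rw [ee_eq, ee_eq, smul_def, smul_def, σ_mulVec]
  congr 1
  set A := (g : Matrix (Fin 2 ⊕ Fin 2) (Fin 2 ⊕ Fin 2) F).map (algebraMap F E) with hA
  have h1 : Aᵀ * Matrix.J (Fin 2) E * A = Matrix.J (Fin 2) E := by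
    have h2 := SymplecticGroup.mem_iff'.1 g.2
    have h3 := congrArg (fun M : Matrix (Fin 2 ⊕ Fin 2) (Fin 2 ⊕ Fin 2) F => M.map (algebraMap F E)) h2
    have hJ : (Matrix.J (Fin 2) F).map (algebraMap F E) = Matrix.J (Fin 2) E := by
      rw [Matrix.J, Matrix.J, Matrix.fromBlocks_map]
      congr 1
      · exact Matrix.map_zero _ (map_zero _)
      · ext i j
        simp only [Matrix.map_apply, Matrix.neg_apply, map_neg, Matrix.one_apply]
        split_ifs <;> simp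
      · exact Matrix.map_one _ (map_zero _) (map_one _)
      · exact Matrix.map_zero _ (map_zero _)
    simp only [Matrix.map_mul, hJ] at h3
    rw [Matrix.transpose_map] at h3
    exact h3
  have h4 : v ⬝ᵥ ((Aᵀ * Matrix.J (Fin 2) E * A) *ᵥ fun i => Q.σ (w i)) =
      (A *ᵥ v) ⬝ᵥ (Matrix.J (Fin 2) E *ᵥ (A *ᵥ fun i => Q.σ (w i))) := by
    rw [← Matrix.mulVec_mulVec, ← Matrix.mulVec_mulVec, Matrix.dotProduct_mulVec v, Matrix.vecMul_transpose]
  rw [← h4, h1]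

theorem smul_comm' (g : Matrix.symplecticGroup (Fin 2) F) (c : E) (v : Fin 2 ⊕ Fin 2 → E) :
    g • (c • v) = c • (g • v) := by
  rw [smul_def, smul_def, Matrix.mulVec_smul]

/-- `F`-matrices on `E²`. -/
def mv (A : Matrix (Fin 2) (Fin 2) F) (x : Fin 2 → E) : Fin 2 → E := A.map (algebraMap F E) *ᵥ x

theorem mv_zero' (A : Matrix (Fin 2) (Fin 2) F) (x : Fin 2 → E) :
    mv A x 0 = algebraMap F E (A 0 0) * x 0 + algebraMap F E (A 0 1) * x 1 := by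
  simp [mv, Matrix.mulVec, dotProduct, Fin.sum_univ_two]

theorem mv_one' (A : Matrix (Fin 2) (Fin 2) F) (x : Fin 2 → E) :
    mv A x 1 = algebraMap F E (A 1 0) * x 0 + algebraMap F E (A 1 1) * x 1 := by
  simp [mv, Matrix.mulVec, dotProduct, Fin.sum_univ_two]

theorem mv_add (A : Matrix (Fin 2) (Fin 2) F) (x y : Fin 2 → E) : mv A (x + y) = mv A x + mv A y :=
  Matrix.mulVec_add _ _ _

theorem mv_mul (A B : Matrix (Fin 2) (Fin 2) F) (x : Fin 2 → E) : mv A (mv B x) = mv (A * B) x := by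
  rw [mv, mv, mv, Matrix.mulVec_mulVec, Matrix.map_mul]

theorem mv_one (x : Fin 2 → E) : mv (1 : Matrix (Fin 2) (Fin 2) F) x = x := by
  rw [mv, Matrix.map_one _ (map_zero _) (map_one _), Matrix.one_mulVec]

theorem tau_mv (A : Matrix (Fin 2) (Fin 2) F) (x a : Fin 2 → E) : Q.tau x (mv A a) = Q.tau (mv Aᵀ x) a := by
  simp only [tau, mv_zero', mv_one', map_add, map_mul, Q.fixF, Matrix.transpose_apply]
  ring

theorem fa_uu (S : Sym 2 F) (v : Fin 2 ⊕ Fin 2 → E) : fa ((uu S : Matrix.symplecticGroup (Fin 2) F) • v) = fa v + mv S.1 (fb v) := by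
  rw [smul_def, uu_coe, Matrix.fromBlocks_map, Matrix.fromBlocks_mulVec]
  funext i
  change ((1 : Matrix (Fin 2) (Fin 2) F).map (algebraMap F E) *ᵥ (v ∘ Sum.inl) + _) i = _
  rw [Matrix.map_one _ (map_zero _) (map_one _), Matrix.one_mulVec]
  rfl

theorem fb_uu (S : Sym 2 F) (v : Fin 2 ⊕ Fin 2 → E) : fb ((uu S : Matrix.symplecticGroup (Fin 2) F) • v) = fb v := by
  rw [smul_def, uu_coe, Matrix.fromBlocks_map, Matrix.fromBlocks_mulVec]
  funext i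
  change ((0 : Matrix (Fin 2) (Fin 2) F).map (algebraMap F E) *ᵥ (v ∘ Sum.inl) +
    (1 : Matrix (Fin 2) (Fin 2) F).map (algebraMap F E) *ᵥ (v ∘ Sum.inr)) i = _
  rw [Matrix.map_one _ (map_zero _) (map_one _), Matrix.map_zero _ (map_zero _), Matrix.one_mulVec, Matrix.zero_mulVec,
    zero_add]
  rfl

theorem fa_mm (h : GL (Fin 2) F) (v : Fin 2 ⊕ Fin 2 → E) :
    fa ((mm h : Matrix.symplecticGroup (Fin 2) F) • v) = mv (h : Matrix (Fin 2) (Fin 2) F) (fa v) := by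
  rw [smul_def, mm_coe, Matrix.fromBlocks_map, Matrix.fromBlocks_mulVec]
  funext i
  change (_ + (0 : Matrix (Fin 2) (Fin 2) F).map (algebraMap F E) *ᵥ (v ∘ Sum.inr)) i = _
  rw [Matrix.map_zero _ (map_zero _), Matrix.zero_mulVec, add_zero]
  rfl

theorem fb_mm (h : GL (Fin 2) F) (v : Fin 2 ⊕ Fin 2 → E) :
    fb ((mm h : Matrix.symplecticGroup (Fin 2) F) • v) = mv ((h⁻¹ : GL (Fin 2) F) : Matrix (Fin 2) (Fin 2) F)ᵀ (fb v) := by
  rw [smul_def, mm_coe, Matrix.fromBlocks_map, Matrix.fromBlocks_mulVec]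
  funext i
  change ((0 : Matrix (Fin 2) (Fin 2) F).map (algebraMap F E) *ᵥ (v ∘ Sum.inl) + _) i = _
  rw [Matrix.map_zero _ (map_zero _), Matrix.zero_mulVec, zero_add]
  rfl

/-- The multiplication operator of a symmetric matrix. -/
noncomputable def MS (S : Sym 2 F) : Matrix (Fin 2 → E) (Fin 2 → E) ℂ :=
  Matrix.diagonal fun x => Q.χ (-Q.tau (mv S.1 x) x)

theorem MS_D (S : Sym 2 F) (v : Fin 2 ⊕ Fin 2 → E) :
    Q.MS S * Q.D v = Q.D ((uu S : Matrix.symplecticGroup (Fin 2) F) • v) * Q.MS S := by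
  ext x y
  rw [MS, Matrix.diagonal_mul, Matrix.mul_diagonal, D, D, fb_uu]
  by_cases h : y = x + fb v
  · rw [if_pos h, if_pos h, kap, kap, fa_uu, fb_uu, ← AddChar.map_add_eq_mul, ← AddChar.map_add_eq_mul, h]
    congr 1
    have hS : (S.1 : Matrix (Fin 2) (Fin 2) F)ᵀ = S.1 := S.2
    have h1 : Q.tau (mv S.1 x) (fb v) = Q.tau x (mv S.1 (fb v)) := by rw [tau_mv, hS]
    have h2 : Q.σ (Q.tau x (mv S.1 (fb v))) = Q.tau (mv S.1 (fb v)) x := Q.σ_tau _ _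
    simp only [mv_add, tau_add_left, tau_add_right, map_add, h2, h1]
    ring
  · rw [if_neg h, if_neg h, mul_zero, zero_mul]

/-- The linear operator of `h`. -/
noncomputable def LO (h : Matrix (Fin 2) (Fin 2) F) : Matrix (Fin 2 → E) (Fin 2 → E) ℂ :=
  fun x y => if y = mv hᵀ x then 1 else 0

theorem LO_mul_apply (h : Matrix (Fin 2) (Fin 2) F) (A : Matrix (Fin 2 → E) (Fin 2 → E) ℂ) (x y : Fin 2 → E) :
    (LO (E := E) h * A) x y = A (mv hᵀ x) y := by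
  rw [Matrix.mul_apply]
  simp only [LO, ite_mul, zero_mul, one_mul, Finset.sum_ite_eq', Finset.mem_univ, if_true]

theorem LO_D (h : GL (Fin 2) F) (v : Fin 2 ⊕ Fin 2 → E) :
    LO (E := E) (h : Matrix (Fin 2) (Fin 2) F) * Q.D v = Q.D ((mm h : Matrix.symplecticGroup (Fin 2) F) • v) *
      LO (E := E) (h : Matrix (Fin 2) (Fin 2) F) := by
  ext x y
  have e0 : (h : Matrix (Fin 2) (Fin 2) F)ᵀ * ((h⁻¹ : GL (Fin 2) F) : Matrix (Fin 2) (Fin 2) F)ᵀ = 1 := by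
    rw [← Matrix.transpose_mul, ← Units.val_mul, inv_mul_cancel, Units.val_one, Matrix.transpose_one]
  have e1 : mv (h : Matrix (Fin 2) (Fin 2) F)ᵀ (mv ((h⁻¹ : GL (Fin 2) F) : Matrix (Fin 2) (Fin 2) F)ᵀ (fb v)) = fb v := by
    rw [mv_mul, e0, mv_one]
  rw [LO_mul_apply, D_mul_apply, D, LO, fb_mm, mv_add, e1]
  by_cases hy : y = mv (h : Matrix (Fin 2) (Fin 2) F)ᵀ x + fb v
  · rw [if_pos hy, if_pos hy, mul_one, kap, kap, fa_mm, fb_mm]
    congr 1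
    rw [tau_mv Q _ x (fa v)]
    congr 1
    rw [← Q.σ_tau (mv ((h⁻¹ : GL (Fin 2) F) : Matrix (Fin 2) (Fin 2) F)ᵀ (fb v)), tau_mv, e1, Q.σ_tau]
  · rw [if_neg hy, if_neg hy, mul_zero]

variable {ζ : Eˣ →* ℂˣ} (hζ : ∃ u ∈ Q.U, ζ u ≠ 1)

theorem MS_comm (S : Sym 2 F) {B : Matrix (Fin 2 → E) (Fin 2 → E) ℂ}
    (hB : ∀ g : Matrix.symplecticGroup (Fin 2) F, B * (Q.wd hζ).W g = (Q.wd hζ).W g * B) :
    B * Q.MS S = Q.MS S * B := by
  obtain ⟨c, hc⟩ := (WD.uniq (H := Q.wd hζ) Q.he (uu S) (Y := Q.MS S) (Q.MS_D S))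
  rw [hc, mul_smul_comm, smul_mul_assoc, hB]

theorem LO_comm (h : GL (Fin 2) F) {B : Matrix (Fin 2 → E) (Fin 2 → E) ℂ}
    (hB : ∀ g : Matrix.symplecticGroup (Fin 2) F, B * (Q.wd hζ).W g = (Q.wd hζ).W g * B) :
    B * LO (h : Matrix (Fin 2) (Fin 2) F) = LO (h : Matrix (Fin 2) (Fin 2) F) * B := by
  obtain ⟨c, hc⟩ := (WD.uniq (H := Q.wd hζ) Q.he (mm h) (Y := LO (h : Matrix (Fin 2) (Fin 2) F)) (Q.LO_D h))
  rw [hc, mul_smul_comm, smul_mul_assoc, hB]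

theorem T_comm {u : Eˣ} (hu : u ∈ Q.U) (g : Matrix.symplecticGroup (Fin 2) F) :
    T u * (Q.wd hζ).W g = (Q.wd hζ).W g * T u := by
  refine WD.comm_W (H := Q.wd hζ) (S := T u) (by rw [star_T, T_mul, mul_inv_cancel, T_one]) (s := fun _ => 1)
    (MulAction.toPerm u⁻¹ : Equiv.Perm (Fin 2 ⊕ Fin 2 → E)) (fun v => by simp) (fun v => ?_) g (fun v => ?_) (fun v => rfl)
  · rw [one_smul]
    exact Q.T_D hu v
  · exact (smul_comm' g ((u⁻¹ : Eˣ) : E) v).symm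

theorem Bm_comm (g : Matrix.symplecticGroup (Fin 2) F) :
    Q.Bm * (Q.wd hζ).W g = (Q.wd hζ).W g * Q.Bm := by
  refine WD.comm_W (H := Q.wd hζ) (S := Q.Bm) (by rw [star_Bm, Bm_sq]) (s := fun v => conj (Q.ee v v))
    ⟨fun v i => Q.σ (v i), fun v i => Q.σ (v i), fun v => funext fun i => Q.inv _, fun v => funext fun i => Q.inv _⟩
    (fun v => ?_) (fun v => ?_) g (fun v => ?_) (fun v => ?_)
  · rw [Complex.conj_conj, mul_comm]
    exact Q.χ_norm _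
  · exact Q.Bm_D v
  · exact Q.σ_mulVec _ v
  · change conj (Q.ee (g • v) (g • v)) = conj (Q.ee v v)
    rw [Q.he]

theorem Pr_comm (η : Eˣ →* ℂˣ) (g : Matrix.symplecticGroup (Fin 2) F) :
    Q.Pr η * (Q.wd hζ).W g = (Q.wd hζ).W g * Q.Pr η := by
  rw [Pr, smul_mul_assoc, mul_smul_comm, Finset.sum_mul, Finset.mul_sum]
  congr 1
  refine Finset.sum_congr rfl fun u _ => ?_
  rw [smul_mul_assoc, mul_smul_comm, Q.T_comm hζ u.2]

theorem hP (g : Matrix.symplecticGroup (Fin 2) F) : (Q.wd hζ).CP ((Q.wd hζ).W g) :=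
  ⟨Q.Pr_comm hζ 1 g, Q.Pr_comm hζ ζ g⟩

/-! ### The sign projection -/

/-- The projection to the sign part. -/
noncomputable def eS : Matrix (Fin 2 → E) (Fin 2 → E) ℂ := (1 / 2 : ℂ) • ((1 - Q.Bm) * Q.Pr 1)

theorem Bm_eS : Q.Bm * Q.eS = -Q.eS := by
  rw [eS, mul_smul_comm, ← mul_assoc, mul_sub, mul_one, Bm_sq, ← smul_neg, ← neg_mul, neg_sub]

theorem σ_mem_U {u : Eˣ} (hu : u ∈ Q.U) : Units.map (Q.σ : E →* E) u ∈ Q.U := by
  rw [mem_U] at hu ⊢
  change Q.σ u * Q.σ (Q.σ u) = 1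
  rw [Q.inv, mul_comm]
  exact hu

theorem T_eS {u : Eˣ} (hu : u ∈ Q.U) : T u * Q.eS = Q.eS := by
  have h1 : T (E := E) u * (1 - Q.Bm) * Q.Pr 1 = (1 - Q.Bm) * Q.Pr 1 := by
    have h2 : T u * Q.Bm = Q.Bm * T (Units.map (Q.σ : E →* E) u) := by
      rw [Bm_T]
      congr 2
      exact Units.ext (Q.inv _).symm
    rw [mul_sub, mul_one, h2, sub_mul, mul_assoc, T_mul_Pr Q 1 hu, T_mul_Pr Q 1 (Q.σ_mem_U hu), sub_mul, one_mul]
    simp only [MonoidHom.one_apply, Units.val_one, one_smul]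
  rw [eS, mul_smul_comm, ← mul_assoc, h1]

theorem Pr_eS : Q.Pr 1 * Q.eS = Q.eS := by
  conv_lhs => rw [Pr]
  rw [smul_mul_assoc, Finset.sum_mul]
  have h1 : ∀ u : Q.U, (((((1 : Eˣ →* ℂˣ) (u : Eˣ))⁻¹ : ℂˣ).val) • T (u : Eˣ)) * Q.eS = Q.eS := by
    intro u
    rw [smul_mul_assoc, Q.T_eS u.2]
    simp only [MonoidHom.one_apply, inv_one, Units.val_one, one_smul]
  rw [Finset.sum_congr rfl fun u _ => h1 u, Finset.sum_const, Finset.card_univ, ← Nat.cast_smul_eq_nsmul ℂ, smul_smul,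
    inv_mul_cancel₀ Q.card_U_ne, one_smul]

theorem eS_sq : Q.eS * Q.eS = Q.eS := by
  conv_lhs => rw [eS]
  rw [smul_mul_assoc, mul_assoc]
  change (1 / 2 : ℂ) • ((1 - Q.Bm) * (Q.Pr 1 * Q.eS)) = Q.eS
  rw [Pr_eS, sub_mul, one_mul, Bm_eS, sub_neg_eq_add, ← two_smul ℂ, smul_smul]
  norm_num

theorem eS_comm (g : Matrix.symplecticGroup (Fin 2) F) : Q.eS * (Q.wd hζ).W g = (Q.wd hζ).W g * Q.eS := by
  rw [eS, smul_mul_assoc, mul_smul_comm, mul_assoc, Q.Pr_comm hζ, ← mul_assoc, ← mul_assoc, sub_mul, mul_sub, one_mul,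
    mul_one, Q.Bm_comm hζ]

end QD

end Cfsg.Agent.H987.PSq
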