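import Cfsg.Agent.Characters.Core
import Mathlib.LinearAlgebra.Matrix.PosDef
import Mathlib.LinearAlgebra.Trace
import Mathlib.LinearAlgebra.PID

/-!
# The Weil representation from abstract Heisenberg data, in every characteristic (helper987, S4844)

`WD V X`: unitary matrices `D v` with `D v * D w = e v w • D (v + w)` and scalar commutant, and two
idempotents `Pa`, `Pb` of ranks `r + 1`, `r`. If `G` acts on `V` preserving `e` then
`W g = ∑ v, D (g • v) * (D v)ᴴ` intertwines `D v` and `D (g • v)`, and `om g = (R (W g))⁻¹ • W g` is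
multiplicative if `Pa`, `Pb` commute with the `W g`.
-/

set_option autoImplicit false

namespace Cfsg.Agent.H987.PSq

open Matrix
open scoped ComplexConjugate ComplexOrder

/-- Abstract Heisenberg data. -/
structure WD (V X : Type*) [AddCommGroup V] [Fintype V] [Fintype X] [DecidableEq X] where
  D : V → Matrix X X ℂ
  e : V → V → ℂ
  D_mul : ∀ v w, D v * D w = e v w • D (v + w)
  star_D : ∀ v, (D v)ᴴ * D v = 1
  trace_D : ∀ v w, v ≠ w → (D v * (D w)ᴴ).trace = 0
  e_norm : ∀ v w, e v w * conj (e v w) = 1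
  comm : ∀ A : Matrix X X ℂ, (∀ v, A * D v = D v * A) → ∃ c : ℂ, A = c • (1 : Matrix X X ℂ)
  Pa : Matrix X X ℂ
  Pb : Matrix X X ℂ
  Pa_sq : Pa * Pa = Pa
  Pb_sq : Pb * Pb = Pb
  star_Pa : Paᴴ = Pa
  star_Pb : Pbᴴ = Pb
  det_P : ∀ c : ℂ, (c • Pa + (1 - Pa)).det = c * (c • Pb + (1 - Pb)).det

namespace WD

variable {V X : Type*} [AddCommGroup V] [Fintype V] [Fintype X] [DecidableEq X] {H : WD V X}

theorem D_star (v : V) : H.D v * (H.D v)ᴴ = 1 := mul_eq_one_comm.1 (H.star_D v)

variable {G : Type*} [Group G] [DistribMulAction G V]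

variable (H) in
/-- The intertwiner. -/
noncomputable def W (g : G) : Matrix X X ℂ := ∑ v : V, H.D (g • v) * (H.D v)ᴴ

theorem W_conj (he : ∀ (g : G) (v w : V), H.e (g • v) (g • w) = H.e v w) (g : G) (w : V) :
    H.D (g • w) * H.W g * (H.D w)ᴴ = H.W g := by
  rw [W, Finset.mul_sum, Finset.sum_mul]
  have h1 : ∀ v : V, H.D (g • w) * (H.D (g • v) * (H.D v)ᴴ) * (H.D w)ᴴ =
      H.D (g • (w + v)) * (H.D (w + v))ᴴ := by
    intro v
    calc H.D (g • w) * (H.D (g • v) * (H.D v)ᴴ) * (H.D w)ᴴ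
        = (H.D (g • w) * H.D (g • v)) * (H.D w * H.D v)ᴴ := by
          rw [conjTranspose_mul]; simp only [mul_assoc]
      _ = (H.e w v * conj (H.e w v)) • (H.D (g • (w + v)) * (H.D (w + v))ᴴ) := by
          rw [H.D_mul, H.D_mul, he, conjTranspose_smul, smul_mul_smul_comm, smul_add]
          rfl
      _ = _ := by rw [H.e_norm, one_smul]
  rw [Finset.sum_congr rfl fun v _ => h1 v]
  exact Fintype.sum_equiv (Equiv.addLeft w) _ _ (fun v => rfl)

theorem W_mul_D (he : ∀ (g : G) (v w : V), H.e (g • v) (g • w) = H.e v w) (g : G) (w : V) :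
    H.W g * H.D w = H.D (g • w) * H.W g := by
  conv_lhs => rw [← W_conj he g w]
  rw [mul_assoc _ ((H.D w)ᴴ), H.star_D, mul_one]

theorem trace_W (g : G) : ∃ n : ℕ, (H.W g).trace = (Fintype.card X : ℂ) * (n + 1) := by
  classical
  have h1 : ∀ v : V, (H.D (g • v) * (H.D v)ᴴ).trace = if g • v = v then (Fintype.card X : ℂ) else 0 := by
    intro v
    by_cases h : g • v = v
    · rw [h, D_star, if_pos rfl, Matrix.trace_one]
    · rw [H.trace_D _ _ h, if_neg h]
  refine ⟨(Finset.univ.filter fun v : V => g • v = v).card - 1, ?_⟩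
  have h2 : 0 < (Finset.univ.filter fun v : V => g • v = v).card :=
    Finset.card_pos.2 ⟨0, by simp⟩
  rw [W, Matrix.trace_sum, Finset.sum_congr rfl (fun v _ => h1 v), ← Finset.sum_filter, Finset.sum_const,
    nsmul_eq_mul, mul_comm, Nat.cast_sub h2]
  push_cast
  ring

omit [DecidableEq X] in
theorem card_X_ne [Nonempty X] : (Fintype.card X : ℂ) ≠ 0 := by
  exact_mod_cast Fintype.card_ne_zero

theorem W_ne_zero [Nonempty X] (g : G) : H.W g ≠ 0 := by
  intro h
  obtain ⟨n, h1⟩ := trace_W (H := H) g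
  rw [h, Matrix.trace_zero] at h1
  have h2 : ((n : ℂ) + 1) ≠ 0 := by exact_mod_cast n.succ_ne_zero
  exact mul_ne_zero card_X_ne h2 h1.symm

theorem star_W_mul_D (he : ∀ (g : G) (v w : V), H.e (g • v) (g • w) = H.e v w) (g : G) (w : V) :
    (H.W g)ᴴ * H.D (g • w) = H.D w * (H.W g)ᴴ := by
  have h := congrArg conjTranspose (W_mul_D he g w)
  rw [conjTranspose_mul, conjTranspose_mul] at h
  calc (H.W g)ᴴ * H.D (g • w) = (H.D w * (H.D w)ᴴ) * (H.W g)ᴴ * H.D (g • w) := by
        rw [D_star, one_mul]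
    _ = H.D w * ((H.D w)ᴴ * (H.W g)ᴴ) * H.D (g • w) := by simp only [mul_assoc]
    _ = H.D w * (H.W g)ᴴ * ((H.D (g • w))ᴴ * H.D (g • w)) := by rw [h]; simp only [mul_assoc]
    _ = _ := by rw [H.star_D, mul_one]

theorem exists_scalar [Nonempty X] (he : ∀ (g : G) (v w : V), H.e (g • v) (g • w) = H.e v w)
    (g : G) : ∃ c : ℂ, c ≠ 0 ∧ (H.W g)ᴴ * H.W g = c • 1 ∧ H.W g * (H.W g)ᴴ = c • 1 := by
  obtain ⟨c, hc⟩ := H.comm ((H.W g)ᴴ * H.W g) fun v => by
    rw [mul_assoc, W_mul_D he, ← mul_assoc, star_W_mul_D he, mul_assoc]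
  have hc0 : c ≠ 0 := by
    rintro rfl
    rw [zero_smul, conjTranspose_mul_self_eq_zero] at hc
    exact W_ne_zero g hc
  refine ⟨c, hc0, hc, ?_⟩
  have h1 : (c⁻¹ • (H.W g)ᴴ) * H.W g = 1 := by
    rw [smul_mul_assoc, hc, smul_smul, inv_mul_cancel₀ hc0, one_smul]
  have h2 := mul_eq_one_comm.1 h1
  rw [mul_smul_comm] at h2
  rw [← h2, smul_smul, mul_inv_cancel₀ hc0, one_smul]

/-- Uniqueness of the intertwiner. -/
theorem uniq [Nonempty X] (he : ∀ (g : G) (v w : V), H.e (g • v) (g • w) = H.e v w) (g : G)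
    {Y : Matrix X X ℂ} (hY : ∀ v, Y * H.D v = H.D (g • v) * Y) : ∃ c : ℂ, Y = c • H.W g := by
  obtain ⟨l, hl0, -, hl⟩ := exists_scalar he g
  obtain ⟨m, hm⟩ := H.comm ((H.W g)ᴴ * Y) fun v => by
    rw [mul_assoc, hY, ← mul_assoc, star_W_mul_D he, mul_assoc]
  refine ⟨l⁻¹ * m, ?_⟩
  have h2 := congrArg (H.W g * ·) hm
  simp only [mul_smul_comm, mul_one] at h2
  rw [← mul_assoc, hl, smul_mul_assoc, one_mul] at h2
  rw [mul_smul, ← h2, smul_smul, inv_mul_cancel₀ hl0, one_smul]

theorem exists_cocycle [Nonempty X] (he : ∀ (g : G) (v w : V), H.e (g • v) (g • w) = H.e v w) (g h : G) :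
    ∃ c : ℂ, c ≠ 0 ∧ H.W g * H.W h = c • H.W (g * h) := by
  obtain ⟨c, hc⟩ := uniq (H := H) he (g * h) (Y := H.W g * H.W h) fun v => by
    rw [mul_assoc, W_mul_D he, ← mul_assoc, W_mul_D he, smul_smul, mul_assoc]
  refine ⟨c, ?_, hc⟩
  rintro rfl
  rw [zero_smul] at hc
  obtain ⟨l, hl0, hl, -⟩ := exists_scalar he g
  have h4 := congrArg ((H.W g)ᴴ * ·) hc
  simp only [mul_zero, ← mul_assoc, hl, smul_mul_assoc, one_mul] at h4
  exact W_ne_zero h ((smul_eq_zero.1 h4).resolve_left hl0)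

/-- A symmetry commutes with the intertwiners. -/
theorem comm_W {S : Matrix X X ℂ} (hS : S * Sᴴ = 1) {s : V → ℂ} (φ : V ≃ V)
    (hs : ∀ v, s v * conj (s v) = 1) (hSD : ∀ v, S * H.D v = s v • (H.D (φ v) * S)) (g : G)
    (hφ : ∀ v, φ (g • v) = g • φ v) (hsg : ∀ v, s (g • v) = s v) : S * H.W g = H.W g * S := by
  have h1 : S * H.W g * Sᴴ = H.W g := by
    rw [W, Finset.mul_sum, Finset.sum_mul]
    have h2 : ∀ v : V, S * (H.D (g • v) * (H.D v)ᴴ) * Sᴴ = H.D (g • φ v) * (H.D (φ v))ᴴ := by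
      intro v
      calc S * (H.D (g • v) * (H.D v)ᴴ) * Sᴴ = (S * H.D (g • v)) * (S * H.D v)ᴴ := by
            rw [conjTranspose_mul]; simp only [mul_assoc]
        _ = (s v * conj (s v)) • (H.D (g • φ v) * (S * Sᴴ) * (H.D (φ v))ᴴ) := by
            rw [hSD, hSD, hsg, hφ, conjTranspose_smul, smul_mul_smul_comm, conjTranspose_mul]
            simp only [mul_assoc]
            rfl
        _ = _ := by rw [hs, one_smul, hS, mul_one]
    rw [Finset.sum_congr rfl fun v _ => h2 v]
    exact Fintype.sum_equiv φ _ _ (fun v => rfl)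
  have hS' : Sᴴ * S = 1 := mul_eq_one_comm.1 hS
  calc S * H.W g = S * H.W g * (Sᴴ * S) := by rw [hS', mul_one]
    _ = (S * H.W g * Sᴴ) * S := by simp only [mul_assoc]
    _ = _ := by rw [h1]

/-! ### The normalisation -/

/-- Determinant on the range of an idempotent. -/
noncomputable def dd (P A : Matrix X X ℂ) : ℂ := (A * P + (1 - P)).det

theorem dd_mul {P A B : Matrix X X ℂ} (hP : P * P = P) (hB : P * B = B * P) :
    dd P (A * B) = dd P A * dd P B := by
  rw [dd, dd, dd, ← Matrix.det_mul]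
  congr 1
  have e1 : A * P * (B * P) = A * B * P := by
    calc A * P * (B * P) = A * (P * B) * P := by simp only [mul_assoc]
      _ = A * B * (P * P) := by rw [hB]; simp only [mul_assoc]
      _ = A * B * P := by rw [hP]
  have e2 : A * P * (1 - P) = 0 := by rw [mul_sub, mul_one, mul_assoc, hP, sub_self]
  have e3 : (1 - P) * (B * P) = 0 := by
    rw [← hB, ← mul_assoc, sub_mul, one_mul, hP, sub_self, zero_mul]
  have e4 : (1 - P) * (1 - P) = 1 - P := by
    rw [mul_sub, sub_mul, sub_mul, one_mul, mul_one, hP, one_mul, sub_self, sub_zero]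
  rw [add_mul, mul_add, mul_add, e1, e2, e3, e4, add_zero, zero_add]

theorem dd_one (P : Matrix X X ℂ) : dd P 1 = 1 := by
  rw [dd, one_mul, add_sub_cancel, Matrix.det_one]

theorem dd_star {P A : Matrix X X ℂ} (hPs : Pᴴ = P) (hA : P * A = A * P) :
    dd P Aᴴ = conj (dd P A) := by
  have h : P * Aᴴ = Aᴴ * P := by
    have h := congrArg conjTranspose hA
    rw [conjTranspose_mul, conjTranspose_mul, hPs] at h
    exact h.symm
  rw [dd, dd, starRingEnd_apply, ← Matrix.det_conjTranspose, conjTranspose_add,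
    conjTranspose_mul, conjTranspose_sub, conjTranspose_one, hPs, h]

variable (H) in
/-- The normalising factor. -/
noncomputable def R (A : Matrix X X ℂ) : ℂ := dd H.Pa A / dd H.Pb A

variable (H) in
/-- `A` commutes with the two projections. -/
def CP (A : Matrix X X ℂ) : Prop := H.Pa * A = A * H.Pa ∧ H.Pb * A = A * H.Pb

theorem CP.star {A : Matrix X X ℂ} (hA : H.CP A) : H.CP Aᴴ := by
  constructor
  · have h := congrArg conjTranspose hA.1
    rw [conjTranspose_mul, conjTranspose_mul, H.star_Pa] at h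
    exact h.symm
  · have h := congrArg conjTranspose hA.2
    rw [conjTranspose_mul, conjTranspose_mul, H.star_Pb] at h
    exact h.symm

theorem R_mul {A B : Matrix X X ℂ} (hB : H.CP B) : H.R (A * B) = H.R A * H.R B := by
  rw [R, R, R, dd_mul H.Pa_sq hB.1, dd_mul H.Pb_sq hB.2, mul_div_mul_comm]

theorem CP_smul_one (c : ℂ) : H.CP (c • (1 : Matrix X X ℂ)) := by
  constructor <;> rw [mul_smul_comm, smul_mul_assoc, mul_one, one_mul]

theorem dd_smul_one_ne {P : Matrix X X ℂ} (hP : P * P = P) {c : ℂ} (hc : c ≠ 0) : dd P (c • 1) ≠ 0 := by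
  intro h
  have h1 : dd P ((c • 1) * (c⁻¹ • 1)) = 1 := by
    rw [smul_mul_smul_comm, mul_inv_cancel₀ hc, one_smul, one_mul, dd_one]
  rw [dd_mul hP (by rw [mul_smul_comm, smul_mul_assoc, mul_one, one_mul]), h, zero_mul] at h1
  exact zero_ne_one h1

theorem R_smul_one {c : ℂ} (hc : c ≠ 0) : H.R (c • 1) = c := by
  have h := dd_smul_one_ne H.Pb_sq hc
  have h1 : dd H.Pa (c • 1) = c * dd H.Pb (c • 1) := by
    rw [dd, dd, smul_mul_assoc, smul_mul_assoc, one_mul, one_mul]
    exact H.det_P c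
  rw [R, h1, mul_div_cancel_right₀ _ h]

theorem R_smul {c : ℂ} (hc : c ≠ 0) {A : Matrix X X ℂ} (hA : H.CP A) :
    H.R (c • A) = c * H.R A := by
  have h : c • A = (c • 1) * A := by rw [smul_mul_assoc, one_mul]
  rw [h, R_mul hA, R_smul_one hc]

theorem R_star {A : Matrix X X ℂ} (hA : H.CP A) : H.R Aᴴ = conj (H.R A) := by
  rw [R, R, dd_star H.star_Pa hA.1, dd_star H.star_Pb hA.2, map_div₀]

variable (H) in
/-- The Weil representation. -/
noncomputable def om (g : G) : Matrix X X ℂ := (H.R (H.W g))⁻¹ • H.W g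

variable [Nonempty X]

theorem R_W_ne (he : ∀ (g : G) (v w : V), H.e (g • v) (g • w) = H.e v w) (hP : ∀ g : G, H.CP (H.W g)) (g : G) :
    H.R (H.W g) ≠ 0 := by
  intro h
  obtain ⟨c, hc, hc1, -⟩ := exists_scalar he g
  have h1 : conj (H.R (H.W g)) * H.R (H.W g) = c := by
    rw [← R_star (hP g), ← R_mul (hP g), hc1, R_smul_one hc]
  rw [h, mul_zero] at h1
  exact hc h1.symm

theorem om_mul (he : ∀ (g : G) (v w : V), H.e (g • v) (g • w) = H.e v w) (hP : ∀ g : G, H.CP (H.W g)) (g h : G) :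
    H.om (g * h) = H.om g * H.om h := by
  obtain ⟨c, hc, h1⟩ := exists_cocycle he g h
  have h2 : H.R (H.W g) * H.R (H.W h) = c * H.R (H.W (g * h)) := by
    rw [← R_mul (hP h), h1, R_smul hc (hP _)]
  rw [om, om, om, smul_mul_smul_comm, h1, smul_smul]
  congr 1
  have h3 := R_W_ne he hP g
  have h4 := R_W_ne he hP h
  have h5 := R_W_ne he hP (g * h)
  field_simp
  rw [h2, mul_comm]

theorem om_one (he : ∀ (g : G) (v w : V), H.e (g • v) (g • w) = H.e v w) (hP : ∀ g : G, H.CP (H.W g)) :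
    H.om (1 : G) = 1 := by
  have h1 := om_mul he hP (1 : G) 1
  rw [mul_one] at h1
  have hR := R_W_ne he hP (1 : G)
  obtain ⟨c, hc, hc1, -⟩ := exists_scalar (H := H) he (1 : G)
  have h2 : (c⁻¹ • H.R (H.W (1 : G)) • (H.W (1 : G))ᴴ) * H.om (1 : G) = 1 := by
    rw [om, smul_mul_assoc, smul_mul_assoc, mul_smul_comm, hc1, smul_smul, smul_smul,
      smul_smul]
    have h6 : c⁻¹ * H.R (H.W (1 : G)) * (H.R (H.W (1 : G)))⁻¹ * c = 1 := by
      field_simp
    rw [h6, one_smul]
  have h3 := congrArg ((c⁻¹ • H.R (H.W (1 : G)) • (H.W (1 : G))ᴴ) * ·) h1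
  simp only [← mul_assoc, h2, one_mul] at h3
  exact h3.symm

omit [Nonempty X] in
theorem om_comm {B : Matrix X X ℂ} {g : G} (hB : B * H.W g = H.W g * B) : B * H.om g = H.om g * B := by
  rw [om, mul_smul_comm, smul_mul_assoc, hB]

theorem W_comm_of_om (he : ∀ (g : G) (v w : V), H.e (g • v) (g • w) = H.e v w) (hP : ∀ g : G, H.CP (H.W g))
    {B : Matrix X X ℂ} {g : G} (hB : B * H.om g = H.om g * B) : B * H.W g = H.W g * B := by
  have h : H.W g = H.R (H.W g) • H.om g := by
    rw [om, smul_smul, mul_inv_cancel₀ (R_W_ne he hP g), one_smul]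
  rw [h, mul_smul_comm, smul_mul_assoc, hB]

/-- An operator intertwining as `g`, commuting with the projections, of normalising factor `1`. -/
theorem om_eq (he : ∀ (g : G) (v w : V), H.e (g • v) (g • w) = H.e v w) (hP : ∀ g : G, H.CP (H.W g)) {g : G}
    {Y : Matrix X X ℂ} (hY : ∀ v, Y * H.D v = H.D (g • v) * Y) (hR : H.R Y = 1) : H.om g = Y := by
  obtain ⟨c, hc⟩ := uniq he g hY
  have hc0 : c ≠ 0 := by
    rintro rfl
    rw [zero_smul] at hc
    rw [hc, R, dd, dd, zero_mul, zero_mul, zero_add, zero_add] at hR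
    have h1 := H.det_P 0
    rw [zero_smul, zero_smul, zero_add, zero_add, zero_mul] at h1
    rw [h1, zero_div] at hR
    exact zero_ne_one hR
  have h1 : c * H.R (H.W g) = 1 := by rw [← R_smul hc0 (hP g), ← hc, hR]
  rw [om, hc]
  congr 1
  have h2 := R_W_ne he hP g
  field_simp
  rw [mul_comm]
  exact h1.symm

/-! ### The character on the range of an idempotent -/

/-- The representation on the range of an idempotent. -/
noncomputable def subRep (he : ∀ (g : G) (v w : V), H.e (g • v) (g • w) = H.e v w)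
    (hP : ∀ g : G, H.CP (H.W g)) (A : Matrix X X ℂ) (hA : ∀ g : G, A * H.om g = H.om g * A) :
    Representation ℂ G (LinearMap.range (toLin' A)) where
  toFun g := (toLin' (H.om g)).restrict (p := LinearMap.range (toLin' A))
    (q := LinearMap.range (toLin' A)) (by
      rintro _ ⟨x, rfl⟩
      refine ⟨toLin' (H.om g) x, ?_⟩
      rw [← LinearMap.comp_apply, ← LinearMap.comp_apply, ← toLin'_mul, ← toLin'_mul, hA])
  map_one' := by
    ext x
    simp [om_one he hP]
  map_mul' g h := by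
    apply LinearMap.ext
    intro x
    apply Subtype.ext
    change toLin' (H.om (g * h)) (x : X → ℂ) = toLin' (H.om g) (toLin' (H.om h) (x : X → ℂ))
    rw [om_mul he hP, toLin'_mul, LinearMap.comp_apply]

theorem subRep_apply (he : ∀ (g : G) (v w : V), H.e (g • v) (g • w) = H.e v w)
    (hP : ∀ g : G, H.CP (H.W g)) (A : Matrix X X ℂ) (hA : ∀ g : G, A * H.om g = H.om g * A) (g : G)
    (x : LinearMap.range (toLin' A)) : ((subRep he hP A hA g x : LinearMap.range (toLin' A)) : X → ℂ) =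
      H.om g *ᵥ (x : X → ℂ) := rfl

theorem trace_subRep (he : ∀ (g : G) (v w : V), H.e (g • v) (g • w) = H.e v w)
    (hP : ∀ g : G, H.CP (H.W g))
    (A : Matrix X X ℂ) (hA : ∀ g : G, A * H.om g = H.om g * A) (hAA : A * A = A) (g : G) :
    (subRep he hP A hA).character g = (H.om g * A).trace := by
  rw [Representation.character, ← Matrix.trace_toLin'_eq]
  have hf : ∀ x, toLin' (H.om g * A) x ∈ LinearMap.range (toLin' A) := by
    intro x
    rw [← hA, toLin'_mul]
    exact ⟨_, rfl⟩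
  rw [← LinearMap.trace_restrict_eq_of_forall_mem (LinearMap.range (toLin' A))
    (toLin' (H.om g * A)) hf]
  congr 1
  apply LinearMap.ext
  rintro ⟨_, ⟨x, rfl⟩⟩
  apply Subtype.ext
  change toLin' (H.om g) (toLin' A x) = toLin' (H.om g * A) (toLin' A x)
  rw [toLin'_mul, LinearMap.comp_apply, ← LinearMap.comp_apply (toLin' A) (toLin' A),
    ← toLin'_mul, hAA]

end WD

/-- A representation with scalar commutant is irreducible. -/
theorem irr_of_comm {G : Type*} [Group G] [Finite G] {M : Type*} [AddCommGroup M] [Module ℂ M] [Nontrivial M]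
    (ρ : Representation ℂ G M)
    (h : ∀ B : M →ₗ[ℂ] M, (∀ g m, B (ρ g m) = ρ g (B m)) → ∃ c : ℂ, ∀ m, B m = c • m) : ρ.IsIrreducible := by
  classical
  have hnt : Nontrivial (Subrepresentation ρ) := by
    refine ⟨⊥, ⊤, fun h => ?_⟩
    have : (⊥ : Submodule ℂ M) = ⊤ := congrArg Subrepresentation.toSubmodule h
    exact bot_ne_top this
  refine ⟨fun U => ?_⟩
  obtain ⟨U', hU'⟩ := Characters.Core.exists_isCompl_sub U
  obtain ⟨c, hc⟩ := h (U.toSubmodule.projection U'.toSubmodule hU') (by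
    intro g m
    have hm := Submodule.projection_add_projection_eq_self hU' m
    have ha := Submodule.projection_apply_mem hU' m
    have hb := Submodule.projection_apply_mem hU'.symm m
    set a := U.toSubmodule.projection U'.toSubmodule hU' m
    set b := U'.toSubmodule.projection U.toSubmodule hU'.symm m
    rw [← hm, map_add, map_add,
      Submodule.projection_apply_of_mem_left hU' (U.apply_mem_toSubmodule g ha)]
    have h2 : U.toSubmodule.projection U'.toSubmodule hU' (ρ g b) = 0 :=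
      (Submodule.projection_apply_eq_zero_iff hU').2 (U'.apply_mem_toSubmodule g hb)
    rw [h2, add_zero])
  by_cases hU : U.toSubmodule = ⊥
  · left
    exact Subrepresentation.toSubmodule_injective hU
  · right
    obtain ⟨u, hu, hu0⟩ := (Submodule.ne_bot_iff _).1 hU
    have hc1 : c = 1 := by
      have h1 := hc u
      rw [Submodule.projection_apply_of_mem_left hU' hu] at h1
      have h2 : (1 - c) • u = 0 := by rw [sub_smul, one_smul, ← h1, sub_self]
      exact (sub_eq_zero.1 ((smul_eq_zero.1 h2).resolve_right hu0)).symm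
    apply Subrepresentation.toSubmodule_injective
    change U.toSubmodule = ⊤
    rw [eq_top_iff]
    intro m _
    have h1 := hc m
    rw [hc1, one_smul] at h1
    rw [← h1]
    exact Submodule.projection_apply_mem hU' m

namespace WD

variable {V X : Type*} [AddCommGroup V] [Fintype V] [Fintype X] [DecidableEq X] {H : WD V X}
variable {G : Type*} [Group G] [Finite G] [DistribMulAction G V] [Nonempty X]

/-- **The character on the range of an idempotent with scalar commutant.** -/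
theorem isIrr (he : ∀ (g : G) (v w : V), H.e (g • v) (g • w) = H.e v w) (hP : ∀ g : G, H.CP (H.W g))
    {A : Matrix X X ℂ} (hA : ∀ g : G, A * H.W g = H.W g * A) (hAA : A * A = A) (hA0 : A ≠ 0)
    (hirr : ∀ B : Matrix X X ℂ, (∀ g : G, B * H.W g = H.W g * B) → ∃ c : ℂ, A * B * A = c • A) :
    IsIrrCharacter G (fun g : G => (H.om g * A).trace) := by
  have hA' : ∀ g : G, A * H.om g = H.om g * A := fun g => om_comm (hA g)
  have h1 : (subRep he hP A hA').character = fun g : G => (H.om g * A).trace :=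
    funext fun g => trace_subRep he hP A hA' hAA g
  rw [← h1]
  have hnt : Nontrivial (LinearMap.range (toLin' A)) := by
    rw [Submodule.nontrivial_iff_ne_bot]
    intro h
    rw [LinearMap.range_eq_bot] at h
    exact hA0 (by simpa using h)
  refine Characters.Core.isIrrCharacter_of_rep _ (irr_of_comm _ fun B hB => ?_)
  -- extend `B`
  have hrange : ∀ f : X → ℂ, A *ᵥ f ∈ LinearMap.range (toLin' A) := fun f => ⟨f, by rw [toLin'_apply]⟩
  let pr : (X → ℂ) →ₗ[ℂ] LinearMap.range (toLin' A) := (toLin' A).rangeRestrict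
  let L : (X → ℂ) →ₗ[ℂ] (X → ℂ) := ((LinearMap.range (toLin' A)).subtype.comp B).comp pr
  let M := LinearMap.toMatrix' L
  have hM : ∀ f, M *ᵥ f = ((B ⟨A *ᵥ f, hrange f⟩ : LinearMap.range (toLin' A)) : X → ℂ) := by
    intro f
    change LinearMap.toMatrix' L *ᵥ f = _
    rw [LinearMap.toMatrix'_mulVec]
    change ((B (pr f) : LinearMap.range (toLin' A)) : X → ℂ) = _
    congr 1
  have hMcomm : ∀ g : G, M * H.om g = H.om g * M := by
    intro g
    apply Matrix.toLin'.injective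
    apply LinearMap.ext
    intro f
    rw [toLin'_apply, toLin'_apply, ← Matrix.mulVec_mulVec, ← Matrix.mulVec_mulVec, hM, hM]
    have e1 : (⟨A *ᵥ (H.om g *ᵥ f), hrange _⟩ : LinearMap.range (toLin' A)) =
        subRep he hP A hA' g ⟨A *ᵥ f, hrange f⟩ := by
      apply Subtype.ext
      rw [subRep_apply]
      change A *ᵥ (H.om g *ᵥ f) = H.om g *ᵥ (A *ᵥ f)
      rw [Matrix.mulVec_mulVec, Matrix.mulVec_mulVec, hA']
    rw [e1, hB, subRep_apply]
  obtain ⟨c, hc⟩ := hirr M fun g => W_comm_of_om he hP (hMcomm g)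
  refine ⟨c, ?_⟩
  rintro ⟨_, ⟨f, rfl⟩⟩
  apply Subtype.ext
  have hfix : A *ᵥ (toLin' A f) = toLin' A f := by
    rw [toLin'_apply, Matrix.mulVec_mulVec, hAA]
  have h2 : (A * M * A) *ᵥ (toLin' A f) = c • (toLin' A f) := by
    rw [hc, Matrix.smul_mulVec, hfix]
  have h3 : (A * M * A) *ᵥ (toLin' A f) = A *ᵥ (M *ᵥ (toLin' A f)) := by
    rw [← Matrix.mulVec_mulVec, hfix, ← Matrix.mulVec_mulVec]
  have h4 : (⟨A *ᵥ (toLin' A f), hrange _⟩ : LinearMap.range (toLin' A)) = ⟨toLin' A f, ⟨f, rfl⟩⟩ :=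
    Subtype.ext hfix
  rw [h3, hM, h4] at h2
  obtain ⟨f', hf'⟩ := (B ⟨toLin' A f, ⟨f, rfl⟩⟩).2
  have h5 : A *ᵥ ((B ⟨toLin' A f, ⟨f, rfl⟩⟩ : LinearMap.range (toLin' A)) : X → ℂ) =
      ((B ⟨toLin' A f, ⟨f, rfl⟩⟩ : LinearMap.range (toLin' A)) : X → ℂ) := by
    rw [← hf', toLin'_apply, Matrix.mulVec_mulVec, hAA]
  rw [h5] at h2
  exact h2

end WD

end Cfsg.Agent.H987.PSq
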