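import Cfsg.Agent.H987.PSq.WAct

/-!
# Irreducibility and degree of the sign part (helper987, S4844)
-/

set_option autoImplicit false
set_option linter.unusedSectionVars false

namespace Cfsg.Agent.H987.PSq

open Matrix Cfsg.Agent.H162.Weil
open scoped ComplexConjugate ComplexOrder

namespace QD

variable {F E : Type*} [Field F] [Field E] [Algebra F E] (Q : QD F E) [DecidableEq E] [Fintype E]

/-- The determinant function. -/
def del (x : Fin 2 → E) : E := x 0 * Q.σ (x 1) - x 1 * Q.σ (x 0)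

/-- If the `F`-invariants agree, then `y` is in the orbit of `x` under `O_2^-`. -/
theorem orb {x y : Fin 2 → E} (h0 : x 0 * Q.σ (x 0) = y 0 * Q.σ (y 0)) (h1 : x 1 * Q.σ (x 1) = y 1 * Q.σ (y 1))
    (h2 : x 0 * Q.σ (x 1) + x 1 * Q.σ (x 0) = y 0 * Q.σ (y 1) + y 1 * Q.σ (y 0)) :
    ∃ u ∈ Q.U, y = (u : E) • x ∨ y = (u : E) • fun i => Q.σ (x i) := by
  have hσ0 : ∀ z, Q.σ z = 0 ↔ z = 0 := fun z => map_eq_zero _
  by_cases hx0 : x 0 = 0
  · have hy0 : y 0 = 0 := by
      rw [hx0, zero_mul] at h0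
      rcases mul_eq_zero.1 h0.symm with h | h
      · exact h
      · exact (hσ0 _).1 h
    by_cases hx1 : x 1 = 0
    · have hy1 : y 1 = 0 := by
        rw [hx1, zero_mul] at h1
        rcases mul_eq_zero.1 h1.symm with h | h
        · exact h
        · exact (hσ0 _).1 h
      refine ⟨1, Q.U.one_mem, Or.inl ?_⟩
      funext i
      fin_cases i
      · change y 0 = ((1 : Eˣ) : E) * x 0
        rw [hy0, hx0, mul_zero]
      · change y 1 = ((1 : Eˣ) : E) * x 1
        rw [hy1, hx1, mul_zero]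
    · have hy1 : y 1 ≠ 0 := by
        intro h
        rw [h, zero_mul] at h1
        rcases mul_eq_zero.1 h1 with h | h
        · exact hx1 h
        · exact hx1 ((hσ0 _).1 h)
      have hσx1 : Q.σ (x 1) ≠ 0 := fun h => hx1 ((hσ0 _).1 h)
      refine ⟨Units.mk0 (y 1 / x 1) (div_ne_zero hy1 hx1), ?_, Or.inl ?_⟩
      · rw [mem_U, Units.val_mk0, map_div₀]
        field_simp
        exact h1.symm
      · funext i
        fin_cases i
        · change y 0 = (y 1 / x 1) * x 0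
          rw [hy0, hx0, mul_zero]
        · change y 1 = (y 1 / x 1) * x 1
          rw [div_mul_cancel₀ _ hx1]
  · have hσx0 : Q.σ (x 0) ≠ 0 := fun h => hx0 ((hσ0 _).1 h)
    have hy0 : y 0 ≠ 0 := by
      intro h
      rw [h, zero_mul] at h0
      rcases mul_eq_zero.1 h0 with h | h
      · exact hx0 h
      · exact hσx0 h
    have hσy0 : Q.σ (y 0) ≠ 0 := fun h => hy0 ((hσ0 _).1 h)
    -- `(y 1 σ (y 0) - x 1 σ (x 0)) (y 1 σ (y 0) - x 0 σ (x 1)) = 0`
    have key : (y 1 * Q.σ (y 0) - x 1 * Q.σ (x 0)) * (y 1 * Q.σ (y 0) - x 0 * Q.σ (x 1)) = 0 := by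
      linear_combination (-(y 1 * Q.σ (y 0))) * h2 + (x 1 * Q.σ (x 1)) * h0 + (y 0 * Q.σ (y 0)) * h1
    have hN : (y 0 / x 0) * Q.σ (y 0 / x 0) = 1 := by
      rw [map_div₀]
      field_simp
      exact h0.symm
    rcases mul_eq_zero.1 key with h | h
    · refine ⟨Units.mk0 (y 0 / x 0) (div_ne_zero hy0 hx0), ?_, Or.inl ?_⟩
      · rw [mem_U, Units.val_mk0]
        exact hN
      · funext i
        fin_cases i
        · change y 0 = (y 0 / x 0) * x 0
          rw [div_mul_cancel₀ _ hx0]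
        · change y 1 = (y 0 / x 0) * x 1
          field_simp
          apply mul_right_cancel₀ hσy0
          linear_combination (x 0) * h + (x 1) * h0
    · refine ⟨Units.mk0 (y 0 / Q.σ (x 0)) (div_ne_zero hy0 hσx0), ?_, Or.inr ?_⟩
      · rw [mem_U, Units.val_mk0, map_div₀, Q.inv]
        field_simp
        rw [mul_comm (Q.σ (x 0))]
        exact h0.symm
      · funext i
        fin_cases i
        · change y 0 = (y 0 / Q.σ (x 0)) * Q.σ (x 0)
          rw [div_mul_cancel₀ _ hσx0]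
        · change y 1 = (y 0 / Q.σ (x 0)) * Q.σ (x 1)
          field_simp
          apply mul_right_cancel₀ hσy0
          linear_combination (Q.σ (x 0)) * h + (Q.σ (x 1)) * h0

/-- Degenerate points are fixed by a reflection. -/
theorem exists_refl {x : Fin 2 → E} (hx : Q.del x = 0) : ∃ u ∈ Q.U, (fun i => Q.σ (x i)) = (u : E) • x := by
  have hσ0 : ∀ z, Q.σ z = 0 ↔ z = 0 := fun z => map_eq_zero _
  rw [del, sub_eq_zero] at hx
  by_cases hx0 : x 0 = 0
  · by_cases hx1 : x 1 = 0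
    · refine ⟨1, Q.U.one_mem, ?_⟩
      funext i
      fin_cases i
      · change Q.σ (x 0) = ((1 : Eˣ) : E) * x 0
        rw [hx0, map_zero, mul_zero]
      · change Q.σ (x 1) = ((1 : Eˣ) : E) * x 1
        rw [hx1, map_zero, mul_zero]
    · have hσx1 : Q.σ (x 1) ≠ 0 := fun h => hx1 ((hσ0 _).1 h)
      refine ⟨Units.mk0 (Q.σ (x 1) / x 1) (div_ne_zero hσx1 hx1), ?_, ?_⟩
      · rw [mem_U, Units.val_mk0, map_div₀, Q.inv]
        field_simp
      · funext i
        fin_cases i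
        · change Q.σ (x 0) = (Q.σ (x 1) / x 1) * x 0
          rw [hx0, map_zero, mul_zero]
        · change Q.σ (x 1) = (Q.σ (x 1) / x 1) * x 1
          rw [div_mul_cancel₀ _ hx1]
  · have hσx0 : Q.σ (x 0) ≠ 0 := fun h => hx0 ((hσ0 _).1 h)
    refine ⟨Units.mk0 (Q.σ (x 0) / x 0) (div_ne_zero hσx0 hx0), ?_, ?_⟩
    · rw [mem_U, Units.val_mk0, map_div₀, Q.inv]
      field_simp
    · funext i
      fin_cases i
      · change Q.σ (x 0) = (Q.σ (x 0) / x 0) * x 0
        rw [div_mul_cancel₀ _ hx0]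
      · change Q.σ (x 1) = (Q.σ (x 0) / x 0) * x 1
        field_simp
        rw [mul_comm (Q.σ (x 1)), hx, mul_comm]

theorem del_ne_refl {x : Fin 2 → E} (hx : Q.del x ≠ 0) (u : E) : x ≠ u • fun i => Q.σ (x i) := by
  intro h
  apply hx
  have h0 : x 0 = u * Q.σ (x 0) := congrFun h 0
  have h1 : x 1 = u * Q.σ (x 1) := congrFun h 1
  rw [del]
  linear_combination (Q.σ (x 1)) * h0 - (Q.σ (x 0)) * h1

theorem ne_zero_of_del {x : Fin 2 → E} (hx : Q.del x ≠ 0) : x ≠ 0 := by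
  rintro rfl
  exact hx (by simp [del])

theorem eS_smul {u : Eˣ} (hu : u ∈ Q.U) (x y : Fin 2 → E) : Q.eS ((u : E) • x) y = Q.eS x y := by
  have h := congrFun (congrFun (Q.T_eS hu) x) y
  rwa [T_mul_apply] at h

theorem eS_σ (x y : Fin 2 → E) : Q.eS (fun i => Q.σ (x i)) y = -Q.eS x y := by
  have h := congrFun (congrFun Q.Bm_eS x) y
  rwa [Bm_mul_apply] at h

theorem eS_smul_σ {u : Eˣ} (hu : u ∈ Q.U) (x y : Fin 2 → E) : Q.eS ((u : E) • fun i => Q.σ (x i)) y = -Q.eS x y := by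
  rw [Q.eS_smul hu, eS_σ]

theorem eS_zero {x : Fin 2 → E} (hx : Q.del x = 0) (y : Fin 2 → E) : Q.eS x y = 0 := by
  obtain ⟨u, hu, h⟩ := Q.exists_refl hx
  have h1 := Q.eS_smul hu x y
  rw [← h, eS_σ] at h1
  have h2 : (2 : ℂ) * Q.eS x y = 0 := by linear_combination -h1
  exact (mul_eq_zero.1 h2).resolve_left two_ne_zero

theorem eS_diag {x : Fin 2 → E} (hx : Q.del x ≠ 0) : Q.eS x x = (2 * (Fintype.card Q.U : ℂ))⁻¹ := by
  have hx0 := Q.ne_zero_of_del hx
  have h1 : Q.Pr 1 x x = (Fintype.card Q.U : ℂ)⁻¹ := by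
    rw [Pr_apply]
    rw [Finset.sum_eq_single (1 : Q.U)]
    · rw [if_pos (by rw [Subgroup.coe_one, Units.val_one, one_smul])]
      simp
    · intro u _ hu
      rw [if_neg]
      intro h
      apply hu
      have h2 : (((u : Eˣ) : E) - 1) • x = 0 := by rw [sub_smul, one_smul, ← h, sub_self]
      have h3 := (smul_eq_zero.1 h2).resolve_right hx0
      exact Subtype.ext (Units.ext (sub_eq_zero.1 h3))
    · intro h
      exact absurd (Finset.mem_univ _) h
  have h2 : Q.Pr 1 (fun i => Q.σ (x i)) x = 0 := by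
    rw [Pr_apply, Finset.sum_eq_zero, mul_zero]
    intro u _
    rw [if_neg (Q.del_ne_refl hx _)]
  rw [eS, Matrix.smul_apply, sub_mul, one_mul, Matrix.sub_apply, Bm_mul_apply, h1, h2, smul_eq_mul, mul_inv, sub_zero]
  norm_num

/-- Support of an operator commuting with the multiplication operators. -/
theorem supp {B : Matrix (Fin 2 → E) (Fin 2 → E) ℂ} (hB : ∀ S : Sym 2 F, B * Q.MS S = Q.MS S * B)
    {x y : Fin 2 → E} (hxy : B x y ≠ 0) : ∃ u ∈ Q.U, y = (u : E) • x ∨ y = (u : E) • fun i => Q.σ (x i) := by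
  have h1 : ∀ S : Sym 2 F, Q.χ (-Q.tau (mv S.1 x) x) = Q.χ (-Q.tau (mv S.1 y) y) := by
    intro S
    have h := congrFun (congrFun (hB S) x) y
    rw [MS, Matrix.mul_diagonal, Matrix.diagonal_mul, mul_comm] at h
    exact (mul_right_cancel₀ hxy h).symm
  have hfix : ∀ (S : Sym 2 F) (z : Fin 2 → E), Q.σ (Q.tau (mv S.1 z) z) = Q.tau (mv S.1 z) z := by
    intro S z
    have hS : (S.1 : Matrix (Fin 2) (Fin 2) F)ᵀ = S.1 := S.2
    rw [Q.σ_tau, tau_mv, hS]
  have h2 : ∀ S : Sym 2 F, Q.tau (mv S.1 x) x = Q.tau (mv S.1 y) y := by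
    intro S
    obtain ⟨c, hc⟩ := Q.fix (Q.tau (mv S.1 x) x - Q.tau (mv S.1 y) y) (by rw [map_sub, hfix, hfix])
    by_cases hc0 : c = 0
    · rw [hc0, map_zero] at hc
      exact sub_eq_zero.1 hc.symm
    · exfalso
      obtain ⟨a, ha⟩ := Q.ntriv
      apply ha
      let S' : Sym 2 F := ⟨(a / c) • S.1, by
        have hS : (S.1 : Matrix (Fin 2) (Fin 2) F)ᵀ = S.1 := S.2
        rw [mem_Sym, Matrix.transpose_smul, hS]⟩
      have h3 : ∀ z : Fin 2 → E, Q.tau (mv S'.1 z) z = algebraMap F E (a / c) * Q.tau (mv S.1 z) z := by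
        intro z
        simp only [S', tau, mv_zero', mv_one', Matrix.smul_apply, smul_eq_mul, map_mul]
        ring
      have h4 := h1 S'
      rw [h3, h3] at h4
      have h5 : algebraMap F E a = -(algebraMap F E (a / c) * Q.tau (mv S.1 y) y) -
          -(algebraMap F E (a / c) * Q.tau (mv S.1 x) x) := by
        have h6 : algebraMap F E a = algebraMap F E (a / c) * algebraMap F E c := by
          rw [← map_mul, div_mul_cancel₀ _ hc0]
        rw [h6, hc]
        ring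
      rw [h5, sub_eq_add_neg, AddChar.map_add_eq_mul, ← h4, ← AddChar.map_add_eq_mul, add_neg_cancel,
        AddChar.map_zero_eq_one]
  have e0 := h2 (sD 0 1)
  have e1 := h2 (sD 1 1)
  have e2 := h2 (sE 0 1 1)
  simp only [tau, mv_zero', mv_one', sD, sE, Matrix.add_apply, Matrix.single_apply] at e0 e1 e2
  norm_num at e0 e1 e2
  exact Q.orb e0 e1 (by linear_combination e2)

theorem key {B : Matrix (Fin 2 → E) (Fin 2 → E) ℂ} (hB : ∀ S : Sym 2 F, B * Q.MS S = Q.MS S * B) (x z : Fin 2 → E) :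
    Q.eS x x * (B * Q.eS) x z = (B * Q.eS) x x * Q.eS x z := by
  rw [Matrix.mul_apply, Matrix.mul_apply, Finset.mul_sum, Finset.sum_mul]
  refine Finset.sum_congr rfl fun y _ => ?_
  by_cases hxy : B x y = 0
  · rw [hxy]; ring
  · obtain ⟨u, hu, h | h⟩ := Q.supp hB hxy
    · rw [h, Q.eS_smul hu, Q.eS_smul hu]; ring
    · rw [h, Q.eS_smul_σ hu, Q.eS_smul_σ hu]; ring

theorem mul_eS_zero {B : Matrix (Fin 2 → E) (Fin 2 → E) ℂ} (hB : ∀ S : Sym 2 F, B * Q.MS S = Q.MS S * B)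
    {x : Fin 2 → E} (hx : Q.del x = 0) (z : Fin 2 → E) : (B * Q.eS) x z = 0 := by
  rw [Matrix.mul_apply]
  refine Finset.sum_eq_zero fun y _ => ?_
  by_cases hxy : B x y = 0
  · rw [hxy, zero_mul]
  · obtain ⟨u, hu, h | h⟩ := Q.supp hB hxy
    · rw [h, Q.eS_smul hu, Q.eS_zero hx, mul_zero]
    · rw [h, Q.eS_smul_σ hu, Q.eS_zero hx, neg_zero, mul_zero]

/-! ### The base point -/

theorem exists_coord {w : E} (hw : Q.σ w ≠ w) (z : E) : ∃ a b : F, z = algebraMap F E a + algebraMap F E b * w := by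
  have hd : w - Q.σ w ≠ 0 := fun h => hw (sub_eq_zero.1 h).symm
  have hd' : Q.σ w - w ≠ 0 := fun h => hw (sub_eq_zero.1 h)
  obtain ⟨b, hb⟩ := Q.fix ((z - Q.σ z) / (w - Q.σ w)) (by
    rw [map_div₀, map_sub, map_sub, Q.inv, Q.inv, div_eq_div_iff hd' hd]
    ring)
  obtain ⟨a, ha⟩ := Q.fix (z - algebraMap F E b * w) (by
    rw [map_sub, map_mul, Q.fixF, hb]
    field_simp
    ring)
  exact ⟨a, b, by rw [ha]; ring⟩

theorem coord_unique {w : E} (hw : Q.σ w ≠ w) {a b a' b' : F}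
    (h : algebraMap F E a + algebraMap F E b * w = algebraMap F E a' + algebraMap F E b' * w) : a = a' ∧ b = b' := by
  have hd : w - Q.σ w ≠ 0 := fun h => hw (sub_eq_zero.1 h).symm
  have h1 := congrArg Q.σ h
  rw [map_add, map_add, map_mul, map_mul, Q.fixF, Q.fixF, Q.fixF, Q.fixF] at h1
  have h2 : (algebraMap F E b - algebraMap F E b') * (w - Q.σ w) = 0 := by
    linear_combination h - h1
  have h3 : b = b' := (algebraMap F E).injective (sub_eq_zero.1 ((mul_eq_zero.1 h2).resolve_right hd))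
  subst h3
  exact ⟨(algebraMap F E).injective (add_right_cancel h), rfl⟩

/-- The base point. -/
def bp (w : E) : Fin 2 → E := ![1, w]

theorem mv_bp (h : Matrix (Fin 2) (Fin 2) F) (w : E) : mv h (bp w) =
    ![algebraMap F E (h 0 0) + algebraMap F E (h 0 1) * w, algebraMap F E (h 1 0) + algebraMap F E (h 1 1) * w] := by
  funext i
  fin_cases i
  · change mv h (bp w) 0 = _
    rw [mv_zero']
    simp [bp]
  · change mv h (bp w) 1 = _
    rw [mv_one']
    simp [bp]

theorem del_mv_bp (h : Matrix (Fin 2) (Fin 2) F) (w : E) :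
    Q.del (mv h (bp w)) = algebraMap F E h.det * (Q.σ w - w) := by
  rw [mv_bp, Matrix.det_fin_two]
  simp only [del, Matrix.cons_val_zero, Matrix.cons_val_one, map_add, map_mul, map_sub, Q.fixF]
  ring

/-- The parametrisation of the regular points. -/
noncomputable def par {w : E} (hw : Q.σ w ≠ w) : GL (Fin 2) F ≃ {x : Fin 2 → E // Q.del x ≠ 0} := by
  have hd' : Q.σ w - w ≠ 0 := fun h => hw (sub_eq_zero.1 h)
  refine Equiv.ofBijective (fun h => ⟨mv (h : Matrix (Fin 2) (Fin 2) F) (bp w), ?_⟩) ⟨?_, ?_⟩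
  · rw [del_mv_bp]
    have h1 : (h : Matrix (Fin 2) (Fin 2) F).det ≠ 0 := by
      have h2 := (Matrix.isUnit_iff_isUnit_det _).1 h.isUnit
      exact h2.ne_zero
    exact mul_ne_zero ((map_ne_zero _).2 h1) hd'
  · intro h h' heq
    have h1 : mv (h : Matrix (Fin 2) (Fin 2) F) (bp w) = mv (h' : Matrix (Fin 2) (Fin 2) F) (bp w) := congrArg Subtype.val heq
    rw [mv_bp, mv_bp] at h1
    have e0 := Q.coord_unique hw (congrFun h1 0)
    have e1 := Q.coord_unique hw (congrFun h1 1)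
    apply Units.ext
    ext i j
    fin_cases i <;> fin_cases j
    · exact e0.1
    · exact e0.2
    · exact e1.1
    · exact e1.2
  · rintro ⟨x, hx⟩
    obtain ⟨a0, b0, h0⟩ := Q.exists_coord hw (x 0)
    obtain ⟨a1, b1, h1⟩ := Q.exists_coord hw (x 1)
    have h2 : mv (!![a0, b0; a1, b1] : Matrix (Fin 2) (Fin 2) F) (bp w) = x := by
      rw [mv_bp]
      funext i
      fin_cases i
      · exact h0.symm
      · exact h1.symm
    have h3 : IsUnit (!![a0, b0; a1, b1] : Matrix (Fin 2) (Fin 2) F) := by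
      rw [Matrix.isUnit_iff_isUnit_det, isUnit_iff_ne_zero]
      intro h
      apply hx
      rw [← h2, del_mv_bp, h, map_zero, zero_mul]
    obtain ⟨g, hg⟩ := h3
    exact ⟨g, Subtype.ext (by change mv (g : Matrix (Fin 2) (Fin 2) F) (bp w) = x; rw [hg, h2])⟩

theorem del_bp {w : E} (hw : Q.σ w ≠ w) : Q.del (bp w) ≠ 0 := by
  have h := (Q.par hw 1).2
  have h1 : ((Q.par hw 1 : {x : Fin 2 → E // Q.del x ≠ 0}) : Fin 2 → E) = bp w := mv_one _
  rwa [h1] at h

theorem exists_par {w : E} (hw : Q.σ w ≠ w) {x : Fin 2 → E} (hx : Q.del x ≠ 0) :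
    ∃ h : GL (Fin 2) F, mv (h : Matrix (Fin 2) (Fin 2) F) (bp w) = x := by
  obtain ⟨h, hh⟩ := (Q.par hw).surjective ⟨x, hx⟩
  exact ⟨h, congrArg Subtype.val hh⟩

variable {ζ : Eˣ →* ℂˣ} (hζ : ∃ u ∈ Q.U, ζ u ≠ 1)

attribute [local instance] act

theorem LO_diag (h : GL (Fin 2) F) {A : Matrix (Fin 2 → E) (Fin 2 → E) ℂ}
    (hA : A * LO (h : Matrix (Fin 2) (Fin 2) F) = LO (h : Matrix (Fin 2) (Fin 2) F) * A) (x : Fin 2 → E) :
    A (mv (h : Matrix (Fin 2) (Fin 2) F)ᵀ x) (mv (h : Matrix (Fin 2) (Fin 2) F)ᵀ x) = A x x := by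
  have h1 := congrFun (congrFun hA x) (mv (h : Matrix (Fin 2) (Fin 2) F)ᵀ x)
  rw [LO_mul_apply] at h1
  rw [← h1, Matrix.mul_apply, Finset.sum_eq_single x]
  · rw [LO, if_pos rfl, mul_one]
  · intro y _ hy
    rw [LO, if_neg, mul_zero]
    intro h2
    apply hy
    have e0 : ((h⁻¹ : GL (Fin 2) F) : Matrix (Fin 2) (Fin 2) F)ᵀ * (h : Matrix (Fin 2) (Fin 2) F)ᵀ = 1 := by
      rw [← Matrix.transpose_mul, ← Units.val_mul, mul_inv_cancel, Units.val_one, Matrix.transpose_one]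
    have h3 := congrArg (mv ((h⁻¹ : GL (Fin 2) F) : Matrix (Fin 2) (Fin 2) F)ᵀ) h2
    rw [mv_mul, mv_mul, e0, mv_one, mv_one] at h3
    exact h3.symm
  · intro h
    exact absurd (Finset.mem_univ _) h

/-- **Scalar commutant on the sign part.** -/
theorem hirr (B : Matrix (Fin 2 → E) (Fin 2 → E) ℂ)
    (hB : ∀ g : Matrix.symplecticGroup (Fin 2) F, B * (Q.wd hζ).W g = (Q.wd hζ).W g * B) :
    ∃ c : ℂ, Q.eS * B * Q.eS = c • Q.eS := by
  obtain ⟨w, hw⟩ := Q.ne
  have hMS : ∀ S : Sym 2 F, B * Q.MS S = Q.MS S * B := fun S => Q.MS_comm hζ S hB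
  set c := 2 * (Fintype.card Q.U : ℂ) * (B * Q.eS) (bp w) (bp w) with hc
  have hcard : (2 * (Fintype.card Q.U : ℂ)) ≠ 0 := mul_ne_zero two_ne_zero Q.card_U_ne
  have h1 : B * Q.eS = c • Q.eS := by
    ext x z
    rw [Matrix.smul_apply, smul_eq_mul]
    by_cases hx : Q.del x = 0
    · rw [Q.mul_eS_zero hMS hx, Q.eS_zero hx, mul_zero]
    · obtain ⟨h, rfl⟩ := Q.exists_par hw hx
      have h2 : (B * Q.eS) (mv (h : Matrix (Fin 2) (Fin 2) F) (bp w)) (mv (h : Matrix (Fin 2) (Fin 2) F) (bp w)) =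
          (B * Q.eS) (bp w) (bp w) := by
        let h' : GL (Fin 2) F := ⟨(h : Matrix (Fin 2) (Fin 2) F)ᵀ, ((h⁻¹ : GL (Fin 2) F) : Matrix (Fin 2) (Fin 2) F)ᵀ, by
          rw [← Matrix.transpose_mul, ← Units.val_mul, inv_mul_cancel, Units.val_one, Matrix.transpose_one], by
          rw [← Matrix.transpose_mul, ← Units.val_mul, mul_inv_cancel, Units.val_one, Matrix.transpose_one]⟩
        have h3 := LO_diag h' (A := B * Q.eS) (by
          rw [mul_assoc, Q.LO_comm hζ h' (Q.eS_comm hζ), ← mul_assoc, Q.LO_comm hζ h' hB, mul_assoc]) (bp w)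
        have h4 : (h' : Matrix (Fin 2) (Fin 2) F)ᵀ = h := Matrix.transpose_transpose _
        rw [h4] at h3
        exact h3
      have h5 := Q.key hMS (mv (h : Matrix (Fin 2) (Fin 2) F) (bp w)) z
      rw [Q.eS_diag hx, h2] at h5
      rw [hc, mul_assoc, ← h5, ← mul_assoc, mul_inv_cancel₀ hcard, one_mul]
  refine ⟨c, ?_⟩
  rw [mul_assoc, h1, mul_smul_comm, Q.eS_sq]

/-- The trace of the sign projection. -/
theorem trace_eS [Finite F] : 2 * (Fintype.card Q.U : ℂ) * Q.eS.trace = Nat.card (GL (Fin 2) F) := by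
  classical
  obtain ⟨w, hw⟩ := Q.ne
  have hcard : (2 * (Fintype.card Q.U : ℂ)) ≠ 0 := mul_ne_zero two_ne_zero Q.card_U_ne
  have hN : Nat.card {x : Fin 2 → E // Q.del x ≠ 0} = (Finset.univ.filter fun x : Fin 2 → E => Q.del x ≠ 0).card := by
    rw [Nat.card_eq_fintype_card, Fintype.card_subtype]
  rw [Nat.card_congr (Q.par hw), hN, Matrix.trace]
  have h1 : ∀ x, Q.eS.diag x = if Q.del x ≠ 0 then (2 * (Fintype.card Q.U : ℂ))⁻¹ else 0 := by
    intro x
    rw [Matrix.diag_apply]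
    by_cases hx : Q.del x = 0
    · rw [if_neg (not_not.2 hx), Q.eS_zero hx]
    · rw [if_pos hx, Q.eS_diag hx]
  rw [Finset.sum_congr rfl fun x _ => h1 x, ← Finset.sum_filter, Finset.sum_const, nsmul_eq_mul, mul_comm, mul_assoc,
    inv_mul_cancel₀ hcard, mul_one]

end QD

end Cfsg.Agent.H987.PSq
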