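import Mathlib
import Cfsg.Agent.H987.PSq.WCore

/-!
# The Heisenberg data of the dual pair `Sp_4(F) × O_2^-(F)` (helper987, S4844)

`E / F` quadratic with involution `σ`; the operators `D v`, `v : E⁴`, on the functions on `E²`; every
characteristic.
-/

set_option autoImplicit false
set_option linter.unusedSectionVars false

namespace Cfsg.Agent.H987.PSq

open Matrix
open scoped ComplexConjugate ComplexOrder

/-- A quadratic extension with its involution and an additive character. -/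
structure QD (F E : Type*) [Field F] [Field E] [Algebra F E] where
  σ : E →+* E
  inv : ∀ z, σ (σ z) = z
  fixF : ∀ a : F, σ (algebraMap F E a) = algebraMap F E a
  fix : ∀ z, σ z = z → ∃ a : F, algebraMap F E a = z
  ne : ∃ z, σ z ≠ z
  χ : AddChar E ℂ
  ntriv : ∃ a : F, χ (algebraMap F E a) ≠ 1

namespace QD

variable {F E : Type*} [Field F] [Field E] [Algebra F E] (Q : QD F E)

theorem χ_norm [Finite E] (z : E) : Q.χ z * conj (Q.χ z) = 1 := by
  rw [← AddChar.map_neg_eq_conj, ← AddChar.map_add_eq_mul, add_neg_cancel, AddChar.map_zero_eq_one]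

/-- The hermitian pairing. -/
def tau (x y : Fin 2 → E) : E := x 0 * Q.σ (y 0) + x 1 * Q.σ (y 1)

theorem tau_add_left (x x' y : Fin 2 → E) : Q.tau (x + x') y = Q.tau x y + Q.tau x' y := by
  simp only [tau, Pi.add_apply]; ring

theorem tau_add_right (x y y' : Fin 2 → E) : Q.tau x (y + y') = Q.tau x y + Q.tau x y' := by
  simp only [tau, Pi.add_apply, map_add]; ring

theorem tau_neg_right (x y : Fin 2 → E) : Q.tau x (-y) = -Q.tau x y := by
  simp only [tau, Pi.neg_apply, map_neg]; ring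

theorem tau_neg_left (x y : Fin 2 → E) : Q.tau (-x) y = -Q.tau x y := by
  simp only [tau, Pi.neg_apply]; ring

theorem tau_sub_right (x y y' : Fin 2 → E) : Q.tau x (y - y') = Q.tau x y - Q.tau x y' := by
  rw [sub_eq_add_neg, tau_add_right, tau_neg_right, sub_eq_add_neg]

theorem tau_sub_left (x x' y : Fin 2 → E) : Q.tau (x - x') y = Q.tau x y - Q.tau x' y := by
  rw [sub_eq_add_neg, tau_add_left, tau_neg_left, sub_eq_add_neg]

theorem tau_zero_left (y : Fin 2 → E) : Q.tau 0 y = 0 := by simp [tau]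

theorem tau_zero_right (x : Fin 2 → E) : Q.tau x 0 = 0 := by simp [tau]

theorem σ_tau (x y : Fin 2 → E) : Q.σ (Q.tau x y) = Q.tau y x := by
  simp only [tau, map_add, map_mul, Q.inv]; ring

/-- The trace is onto. -/
theorem exists_tr (a : F) : ∃ s : E, s + Q.σ s = algebraMap F E a := by
  have h1 : ∃ s : E, s + Q.σ s ≠ 0 := by
    by_contra h
    push Not at h
    obtain ⟨z, hz⟩ := Q.ne
    have h2 := h 1
    rw [map_one] at h2
    have h3 := h z
    apply hz
    have h4 : z + z = 0 := by rw [← mul_two, ← one_add_one_eq_two, h2, mul_zero]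
    have h5 : Q.σ z = -z := by rw [eq_neg_iff_add_eq_zero, add_comm]; exact h3
    have h6 : z = -z := by rw [eq_neg_iff_add_eq_zero]; exact h4
    rw [h5, ← h6]
  obtain ⟨s, hs⟩ := h1
  obtain ⟨c, hc⟩ := Q.fix (s + Q.σ s) (by rw [map_add, Q.inv, add_comm])
  have hc0 : c ≠ 0 := by
    rintro rfl
    rw [map_zero] at hc
    exact hs hc.symm
  refine ⟨algebraMap F E (a / c) * s, ?_⟩
  rw [map_mul, Q.fixF, ← mul_add, ← hc, ← map_mul, div_mul_cancel₀ _ hc0]

theorem exists_ne_one : ∃ s : E, Q.χ (s + Q.σ s) ≠ 1 := by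
  obtain ⟨a, ha⟩ := Q.ntriv
  obtain ⟨s, hs⟩ := Q.exists_tr a
  exact ⟨s, by rw [hs]; exact ha⟩

/-- Non degeneracy in the first variable. -/
theorem exists_left {t : Fin 2 → E} (ht : t ≠ 0) : ∃ x, Q.χ (Q.tau x t + Q.σ (Q.tau x t)) ≠ 1 := by
  obtain ⟨s, hs⟩ := Q.exists_ne_one
  obtain ⟨i, hi⟩ := Function.ne_iff.1 ht
  have hi' : Q.σ (t i) ≠ 0 := (map_ne_zero _).2 hi
  refine ⟨Pi.single i (s / Q.σ (t i)), ?_⟩
  have h : Q.tau (Pi.single i (s / Q.σ (t i))) t = s := by
    fin_cases i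
    · simp only [tau, Fin.zero_eta, Pi.single_eq_same]
      rw [Pi.single_eq_of_ne (by decide)]
      simp only [Fin.zero_eta] at hi'
      rw [zero_mul, add_zero, div_mul_cancel₀ _ hi']
    · simp only [tau, Fin.mk_one, Pi.single_eq_same]
      rw [Pi.single_eq_of_ne (by decide)]
      simp only [Fin.mk_one] at hi'
      rw [zero_mul, zero_add, div_mul_cancel₀ _ hi']
  rw [h]
  exact hs

theorem exists_right {x : Fin 2 → E} (hx : x ≠ 0) : ∃ t, Q.χ (Q.tau x t + Q.σ (Q.tau x t)) ≠ 1 := by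
  obtain ⟨t, ht⟩ := Q.exists_left hx
  refine ⟨t, ?_⟩
  rw [Q.σ_tau] at ht ⊢
  rwa [add_comm]

/-- first half -/
def fa (v : Fin 2 ⊕ Fin 2 → E) : Fin 2 → E := fun i => v (Sum.inl i)

/-- second half -/
def fb (v : Fin 2 ⊕ Fin 2 → E) : Fin 2 → E := fun i => v (Sum.inr i)

theorem fa_add (v w : Fin 2 ⊕ Fin 2 → E) : fa (v + w) = fa v + fa w := rfl

theorem fb_add (v w : Fin 2 ⊕ Fin 2 → E) : fb (v + w) = fb v + fb w := rfl

theorem fab_ext {v w : Fin 2 ⊕ Fin 2 → E} (h1 : fa v = fa w) (h2 : fb v = fb w) : v = w := by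
  funext i
  rcases i with i | i
  · exact congrFun h1 i
  · exact congrFun h2 i

/-- The phase. -/
noncomputable def kap (v : Fin 2 ⊕ Fin 2 → E) (x : Fin 2 → E) : ℂ :=
  Q.χ (Q.tau (fa v) (fb v) + (Q.tau x (fa v) + Q.σ (Q.tau x (fa v))))

variable [DecidableEq E]

/-- The Heisenberg operators. -/
noncomputable def D (v : Fin 2 ⊕ Fin 2 → E) : Matrix (Fin 2 → E) (Fin 2 → E) ℂ :=
  fun x y => if y = x + fb v then Q.kap v x else 0

/-- The Heisenberg cocycle. -/
noncomputable def ee (v w : Fin 2 ⊕ Fin 2 → E) : ℂ :=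
  Q.χ (Q.tau (fb v) (fa w) - Q.tau (fa v) (fb w))

theorem kap_mul (v w : Fin 2 ⊕ Fin 2 → E) (x : Fin 2 → E) :
    Q.kap v x * Q.kap w (x + fb v) = Q.ee v w * Q.kap (v + w) x := by
  rw [kap, kap, kap, ee, ← AddChar.map_add_eq_mul, ← AddChar.map_add_eq_mul]
  congr 1
  simp only [fa_add, fb_add, tau_add_left, tau_add_right, map_add, Q.σ_tau]
  ring

variable [Fintype E]

theorem D_mul_apply (v : Fin 2 ⊕ Fin 2 → E) (A : Matrix (Fin 2 → E) (Fin 2 → E) ℂ) (x y : Fin 2 → E) :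
    (Q.D v * A) x y = Q.kap v x * A (x + fb v) y := by
  rw [Matrix.mul_apply]
  simp only [D, ite_mul, zero_mul, Finset.sum_ite_eq', Finset.mem_univ, if_true]

theorem mul_D_apply (v : Fin 2 ⊕ Fin 2 → E) (A : Matrix (Fin 2 → E) (Fin 2 → E) ℂ) (x y : Fin 2 → E) :
    (A * Q.D v) x y = A x (y - fb v) * Q.kap v (y - fb v) := by
  rw [Matrix.mul_apply]
  have h : ∀ z : Fin 2 → E, A x z * Q.D v z y = if z = y - fb v then A x z * Q.kap v z else 0 := by
    intro z
    rw [D]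
    by_cases hz : z = y - fb v
    · rw [if_pos hz, if_pos (by rw [hz, sub_add_cancel])]
    · rw [if_neg hz, if_neg (fun h => hz (by rw [h, add_sub_cancel_right])), mul_zero]
  simp only [h, Finset.sum_ite_eq', Finset.mem_univ, if_true]

theorem kap_norm (v : Fin 2 ⊕ Fin 2 → E) (x : Fin 2 → E) : Q.kap v x * conj (Q.kap v x) = 1 := Q.χ_norm _

theorem D_mul (v w : Fin 2 ⊕ Fin 2 → E) : Q.D v * Q.D w = Q.ee v w • Q.D (v + w) := by
  ext x y
  rw [D_mul_apply, Matrix.smul_apply, smul_eq_mul, D, D, fb_add, ← add_assoc]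
  by_cases h : y = x + fb v + fb w
  · rw [if_pos h, if_pos h, kap_mul]
  · rw [if_neg h, if_neg h, mul_zero, mul_zero]

theorem star_D (v : Fin 2 ⊕ Fin 2 → E) : (Q.D v)ᴴ * Q.D v = 1 := by
  ext x y
  rw [mul_D_apply, conjTranspose_apply, D, sub_add_cancel, Matrix.one_apply]
  by_cases h : x = y
  · rw [if_pos h, if_pos h, mul_comm]
    exact Q.kap_norm _ _
  · rw [if_neg h, if_neg h, star_zero, zero_mul]

/-- The additive character `x ↦ χ (Tr τ(x,t))`. -/
noncomputable def lam (t : Fin 2 → E) : AddChar (Fin 2 → E) ℂ where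
  toFun x := Q.χ (Q.tau x t + Q.σ (Q.tau x t))
  map_zero_eq_one' := by rw [tau_zero_left, map_zero, add_zero, AddChar.map_zero_eq_one]
  map_add_eq_mul' x y := by
    rw [← AddChar.map_add_eq_mul]
    congr 1
    rw [tau_add_left, map_add]
    ring

theorem sum_lam {t : Fin 2 → E} (ht : t ≠ 0) : ∑ x, Q.χ (Q.tau x t + Q.σ (Q.tau x t)) = 0 := by
  obtain ⟨x, hx⟩ := Q.exists_left ht
  have h : Q.lam t ≠ 0 := by
    intro h
    apply hx
    have h1 := DFunLike.congr_fun h x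
    exact h1
  exact AddChar.sum_eq_zero_iff_ne_zero.2 h

theorem trace_D (v w : Fin 2 ⊕ Fin 2 → E) (hvw : v ≠ w) : (Q.D v * (Q.D w)ᴴ).trace = 0 := by
  rw [Matrix.trace]
  by_cases hb : fb v = fb w
  · have ha : fa v - fa w ≠ 0 := fun h => hvw (fab_ext (sub_eq_zero.1 h) hb)
    have h1 : ∀ x, (Q.D v * (Q.D w)ᴴ).diag x = Q.χ (Q.tau (fa v) (fb v) - Q.tau (fa w) (fb w)) *
        Q.χ (Q.tau x (fa v - fa w) + Q.σ (Q.tau x (fa v - fa w))) := by
      intro x
      rw [Matrix.diag_apply, D_mul_apply, conjTranspose_apply, D, if_pos (by rw [hb]), kap, kap]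
      have h2 : star (Q.χ (Q.tau (fa w) (fb w) + (Q.tau x (fa w) + Q.σ (Q.tau x (fa w))))) =
          Q.χ (-(Q.tau (fa w) (fb w) + (Q.tau x (fa w) + Q.σ (Q.tau x (fa w))))) := by
        rw [AddChar.map_neg_eq_conj]; rfl
      rw [h2, ← AddChar.map_add_eq_mul, ← AddChar.map_add_eq_mul]
      congr 1
      rw [tau_sub_right, map_sub]
      ring
    rw [Finset.sum_congr rfl fun x _ => h1 x, ← Finset.mul_sum, Q.sum_lam ha, mul_zero]
  · refine Finset.sum_eq_zero fun x _ => ?_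
    rw [Matrix.diag_apply, D_mul_apply, conjTranspose_apply, D, if_neg (fun h => hb (add_left_cancel h)),
      star_zero, mul_zero]

theorem comm (A : Matrix (Fin 2 → E) (Fin 2 → E) ℂ) (hA : ∀ v, A * Q.D v = Q.D v * A) :
    ∃ c : ℂ, A = c • (1 : Matrix (Fin 2 → E) (Fin 2 → E) ℂ) := by
  have hn : ∀ v x, Q.kap v x ≠ 0 := by
    intro v x h
    have := Q.kap_norm v x
    rw [h, zero_mul] at this
    exact zero_ne_one this
  refine ⟨A 0 0, ?_⟩
  ext x y
  rw [Matrix.smul_apply, smul_eq_mul, Matrix.one_apply]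
  by_cases hxy : x = y
  · subst hxy
    have h := congrFun (congrFun (hA (Sum.elim 0 (-x))) x) 0
    rw [mul_D_apply, D_mul_apply] at h
    have h1 : fb (Sum.elim (0 : Fin 2 → E) (-x)) = -x := rfl
    have h2 : fa (Sum.elim (0 : Fin 2 → E) (-x)) = 0 := rfl
    rw [kap, kap, h1, h2, tau_zero_left, tau_zero_right, tau_zero_right, map_zero, add_zero, add_zero,
      AddChar.map_zero_eq_one, mul_one, one_mul, zero_sub, neg_neg, add_neg_cancel] at h
    rw [if_pos rfl, mul_one, h]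
  · rw [if_neg hxy, mul_zero]
    obtain ⟨t, ht⟩ := Q.exists_right (sub_ne_zero.2 hxy)
    have h := congrFun (congrFun (hA (Sum.elim t 0)) x) y
    rw [mul_D_apply, D_mul_apply] at h
    have h1 : fb (Sum.elim t (0 : Fin 2 → E)) = 0 := rfl
    have h2 : fa (Sum.elim t (0 : Fin 2 → E)) = t := rfl
    rw [h1, sub_zero, add_zero] at h
    have h3 : A x y * (Q.kap (Sum.elim t 0) y - Q.kap (Sum.elim t 0) x) = 0 := by
      linear_combination h
    refine (mul_eq_zero.1 h3).resolve_right fun h4 => ht ?_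
    have h5 := sub_eq_zero.1 h4
    have h6 : Q.kap (Sum.elim t 0) x = Q.χ (Q.tau (x - y) t + Q.σ (Q.tau (x - y) t)) * Q.kap (Sum.elim t 0) y := by
      rw [kap, kap, h1, h2, ← AddChar.map_add_eq_mul]
      congr 1
      rw [tau_sub_left, map_sub]
      ring
    rw [h6] at h5
    exact mul_right_cancel₀ (hn _ _) (by rw [one_mul, ← h5])

/-! ### The torus `E¹` and the projections -/

/-- Scalar permutation operators. -/
noncomputable def T (u : Eˣ) : Matrix (Fin 2 → E) (Fin 2 → E) ℂ := fun x y => if y = (u : E) • x then 1 else 0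

theorem T_mul_apply (u : Eˣ) (A : Matrix (Fin 2 → E) (Fin 2 → E) ℂ) (x y : Fin 2 → E) :
    (T u * A) x y = A ((u : E) • x) y := by
  rw [Matrix.mul_apply]
  simp only [T, ite_mul, zero_mul, one_mul, Finset.sum_ite_eq', Finset.mem_univ, if_true]

theorem mul_T_apply (u : Eˣ) (A : Matrix (Fin 2 → E) (Fin 2 → E) ℂ) (x y : Fin 2 → E) :
    (A * T u) x y = A x (((u⁻¹ : Eˣ) : E) • y) := by
  rw [Matrix.mul_apply]
  have h : ∀ z : Fin 2 → E, A x z * T u z y = if z = ((u⁻¹ : Eˣ) : E) • y then A x z else 0 := by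
    intro z
    rw [T]
    by_cases hz : z = ((u⁻¹ : Eˣ) : E) • y
    · rw [if_pos hz, if_pos (by rw [hz, smul_smul, Units.mul_inv, one_smul]), mul_one]
    · rw [if_neg hz, if_neg (fun h => hz (by rw [h, smul_smul, Units.inv_mul, one_smul])), mul_zero]
  simp only [h, Finset.sum_ite_eq', Finset.mem_univ, if_true]

theorem T_mul (u w : Eˣ) : T (E := E) u * T w = T (u * w) := by
  ext x y
  rw [T_mul_apply, T, T, smul_smul, mul_comm u w, Units.val_mul]

theorem T_one : T (1 : Eˣ) = 1 := by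
  ext x y
  rw [T, Units.val_one, one_smul, Matrix.one_apply]
  simp only [eq_comm]

theorem star_T (u : Eˣ) : (T u)ᴴ = T u⁻¹ := by
  ext x y
  rw [conjTranspose_apply, T, T]
  by_cases h : y = ((u⁻¹ : Eˣ) : E) • x
  · rw [if_pos h, if_pos (by rw [h, smul_smul, Units.mul_inv, one_smul]), star_one]
  · rw [if_neg h, if_neg (fun h' => h (by rw [h', smul_smul, Units.inv_mul, one_smul])), star_zero]

/-- The elements of norm one. -/
def U : Subgroup Eˣ where
  carrier := {u | (u : E) * Q.σ u = 1}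
  one_mem' := by
    change ((1 : Eˣ) : E) * Q.σ ((1 : Eˣ) : E) = 1
    rw [Units.val_one, map_one, mul_one]
  mul_mem' {a b} ha hb := by
    change ((a * b : Eˣ) : E) * Q.σ ((a * b : Eˣ) : E) = 1
    change (a : E) * Q.σ a = 1 at ha
    change (b : E) * Q.σ b = 1 at hb
    rw [Units.val_mul, map_mul, mul_mul_mul_comm, ha, hb, mul_one]
  inv_mem' {a} ha := by
    change ((a⁻¹ : Eˣ) : E) * Q.σ ((a⁻¹ : Eˣ) : E) = 1
    change (a : E) * Q.σ a = 1 at ha
    have h : ((a * a⁻¹ : Eˣ) : E) * Q.σ ((a * a⁻¹ : Eˣ) : E) = 1 := by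
      rw [mul_inv_cancel, Units.val_one, map_one, mul_one]
    rw [Units.val_mul, map_mul, mul_mul_mul_comm, ha, one_mul] at h
    exact h

theorem mem_U {u : Eˣ} : u ∈ Q.U ↔ (u : E) * Q.σ u = 1 := Iff.rfl

theorem T_D {u : Eˣ} (hu : u ∈ Q.U) (v : Fin 2 ⊕ Fin 2 → E) :
    T u * Q.D v = Q.D (((u⁻¹ : Eˣ) : E) • v) * T u := by
  ext x y
  have hu' : ((u⁻¹ : Eˣ) : E) * Q.σ ((u⁻¹ : Eˣ) : E) = 1 := Q.mem_U.1 (Q.U.inv_mem hu)
  have h0 : (u : E) * ((u⁻¹ : Eˣ) : E) = 1 := Units.mul_inv u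
  have hσ : Q.σ ((u⁻¹ : Eˣ) : E) = u := by
    have h1 : ((u⁻¹ : Eˣ) : E) ≠ 0 := Units.ne_zero _
    apply mul_left_cancel₀ h1
    rw [hu', mul_comm, h0]
  rw [T_mul_apply, D_mul_apply, D, T]
  have e1 : (u : E) • (x + fb (((u⁻¹ : Eˣ) : E) • v)) = (u : E) • x + fb v := by
    funext i
    simp only [Pi.smul_apply, Pi.add_apply, smul_eq_mul, fb]
    rw [mul_add, ← mul_assoc (u : E) _ (v _), h0, one_mul]
  rw [e1]
  by_cases h : y = (u : E) • x + fb v
  · rw [if_pos h, if_pos h, mul_one, kap, kap]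
    congr 1
    simp only [tau, fa, fb, Pi.smul_apply, smul_eq_mul, map_mul, map_add, hσ]
    linear_combination (-(v (Sum.inl 0) * Q.σ (v (Sum.inr 0)) + v (Sum.inl 1) * Q.σ (v (Sum.inr 1)))) * h0
  · rw [if_neg h, if_neg h, mul_zero]

end QD

end Cfsg.Agent.H987.PSq
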